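import Mathlib

/-! Computations in `SL₂` over an algebraically closed field of characteristic two. -/

set_option autoImplicit false

namespace CF.Mas

open Matrix

variable {K : Type*} [Field K] [CharP K 2]

/-- the group -/
abbrev SL2 (K : Type*) [Field K] := Matrix.SpecialLinearGroup (Fin 2) K

theorem tw (K : Type*) [Field K] [CharP K 2] : (2 : K) = 0 := CharTwo.two_eq_zero

/-- upper unitriangular -/
def up (t : K) : SL2 K := ⟨!![1, t; 0, 1], by simp [det_fin_two]⟩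
/-- lower unitriangular -/
def lo (t : K) : SL2 K := ⟨!![1, 0; t, 1], by simp [det_fin_two]⟩

omit [CharP K 2] in
theorem ent (m n : SL2 K) (i j : Fin 2) : (m * n) i j = m i 0 * n 0 j + m i 1 * n 1 j := by
  simp [Matrix.mul_apply, Fin.sum_univ_two]

omit [CharP K 2] in
theorem dt (m : SL2 K) : m 0 0 * m 1 1 - m 0 1 * m 1 0 = 1 := by rw [← det_fin_two]; exact m.2

omit [CharP K 2] in
theorem ex2 {m n : SL2 K} (a : m 0 0 = n 0 0) (b : m 0 1 = n 0 1) (c : m 1 0 = n 1 0) (d : m 1 1 = n 1 1) : m = n := by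
  ext i j; fin_cases i <;> fin_cases j <;> assumption

omit [CharP K 2] in
theorem upe (t : K) : up t 0 0 = 1 ∧ up t 0 1 = t ∧ up t 1 0 = 0 ∧ up t 1 1 = 1 := ⟨rfl, rfl, rfl, rfl⟩
omit [CharP K 2] in
theorem loe (t : K) : lo t 0 0 = 1 ∧ lo t 0 1 = 0 ∧ lo t 1 0 = t ∧ lo t 1 1 = 1 := ⟨rfl, rfl, rfl, rfl⟩
omit [CharP K 2] in
theorem one_e : (1 : SL2 K) 0 0 = 1 ∧ (1 : SL2 K) 0 1 = 0 ∧ (1 : SL2 K) 1 0 = 0 ∧ (1 : SL2 K) 1 1 = 1 := by simp

omit [CharP K 2] in
theorem ee {m n : SL2 K} (e : m = n) (i j : Fin 2) : m i j = n i j := e ▸ rfl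

theorem sq1 {a b : K} (h : a * a = b * b) : a = b := by
  have : (a - b) ^ 2 = 0 := by linear_combination h + (b * b - a * b) * tw K
  exact sub_eq_zero.1 (pow_eq_zero_iff two_ne_zero |>.1 this)

variable {s t ω : K} {m n u : SL2 K}

theorem up_sq (t : K) : up t * up t = 1 := ex2 (by simp [ent, upe]) (by simp only [ent, upe, one_e]; linear_combination t * tw K)
  (by simp [ent, upe]) (by simp [ent, upe])

theorem lo_sq (t : K) : lo t * lo t = 1 := ex2 (by simp [ent, loe]) (by simp [ent, loe])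
  (by simp only [ent, loe, one_e]; linear_combination t * tw K) (by simp [ent, loe])

theorem cu (t0 : t ≠ 0) (h : m * up t = up t * m) : m = up (m 0 1) := by
  have a := ee h 0 0
  have b := ee h 0 1
  have d := dt m
  simp only [ent, upe] at a b
  have c : m 1 0 = 0 := mul_left_cancel₀ t0 (by linear_combination -a)
  have e : m 0 0 = m 1 1 := mul_left_cancel₀ t0 (by linear_combination b)
  have f : m 1 1 = 1 := sq1 (by rw [c, e] at d; linear_combination d)
  exact ex2 (e.trans f) rfl c f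

theorem cl (t0 : t ≠ 0) (h : m * lo t = lo t * m) : m = lo (m 1 0) := by
  have a := ee h 0 0
  have b := ee h 1 0
  have d := dt m
  simp only [ent, loe] at a b
  have c : m 0 1 = 0 := mul_left_cancel₀ t0 (by linear_combination a)
  have e : m 0 0 = m 1 1 := mul_left_cancel₀ t0 (by linear_combination -b)
  have f : m 1 1 = 1 := sq1 (by rw [c, e] at d; linear_combination d)
  exact ex2 (e.trans f) c rfl f

omit [CharP K 2] in
theorem up0 : up (0 : K) = 1 := ex2 rfl rfl rfl rfl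
omit [CharP K 2] in
theorem lo0 : lo (0 : K) = 1 := ex2 rfl rfl rfl rfl

theorem ncu (t0 : t ≠ 0) (n0 : n 1 0 ≠ 0) (h : u * up t = up t * u) (k : u * n = n * u) : u = 1 := by
  have e := cu t0 h
  by_cases c : u 0 1 = 0
  · rw [e, c, up0]
  · rw [e] at k
    exact (n0 (ee (cu c k.symm) 1 0)).elim

theorem ncl (t0 : t ≠ 0) (n0 : n 0 1 ≠ 0) (h : u * lo t = lo t * u) (k : u * n = n * u) : u = 1 := by
  have e := cl t0 h
  by_cases c : u 1 0 = 0
  · rw [e, c, lo0]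
  · rw [e] at k
    exact (n0 (ee (cl c k.symm) 0 1)).elim

omit [CharP K 2] in
theorem mv_lo (s0 : s ≠ 0) (h : m * lo s = lo t * m) : m 0 1 = 0 ∧ m 1 1 * s = t * m 0 0 := by
  have a := ee h 0 0
  have b := ee h 1 0
  simp only [ent, loe] at a b
  exact ⟨mul_left_cancel₀ s0 (by linear_combination a), by linear_combination b⟩

omit [CharP K 2] in
theorem mv_up (s0 : s ≠ 0) (h : m * up s = up t * m) : m 1 0 = 0 ∧ m 0 0 * s = t * m 1 1 := by
  have a := ee h 1 1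
  have b := ee h 0 1
  simp only [ent, upe] at a b
  exact ⟨mul_left_cancel₀ s0 (by linear_combination a), by linear_combination b⟩

omit [CharP K 2] in
theorem pw00 (h : m 1 0 = 0) (k : ℕ) : (m ^ k) 1 0 = 0 ∧ (m ^ k) 0 0 = m 0 0 ^ k := by
  induction k with
  | zero => simp
  | succ k ih => rw [pow_succ, ent, ent, ih.1, ih.2, h, pow_succ]; simp

theorem dih {H S : Type*} [Group H] [Finite H] [Group S] (φ : H →* S) {Y : Subgroup H} {a b : H} (ha : a ∈ Y) (hb : b ∈ Y)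
    (a2 : φ a * φ a = 1) (b2 : φ b * φ b = 1) (nc : ∀ u, u * φ a = φ a * u → u * φ b = φ b * u → u = 1) :
    ∃ w ∈ Y, φ w * φ a * (φ w)⁻¹ = φ b ∧ φ w * φ b * (φ w)⁻¹ = φ a := by
  have p := (φ.isOfFinOrder (isOfFinOrder_of_finite (a * b))).orderOf_pos
  have o := pow_orderOf_eq_one (φ (a * b))
  have r : ∀ k : ℕ, φ a * φ (a * b) ^ k = (φ (a * b) ^ k)⁻¹ * φ a := fun k => by
    rw [← mul_inv_eq_iff_eq_mul, ← conj_pow, ← inv_pow, map_mul, _root_.mul_inv_rev, ← mul_assoc, a2, one_mul,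
      inv_eq_of_mul_eq_one_left b2]
  have e : φ b = φ a * φ (a * b) := by rw [map_mul, ← mul_assoc, a2, one_mul]
  have i := inv_eq_of_mul_eq_one_left a2
  generalize hr : φ (a * b) = ρ at *
  rcases Nat.even_or_odd' (orderOf ρ) with ⟨k, c | c⟩
  · rw [c, two_mul, pow_add] at o
    have := r k
    rw [inv_eq_of_mul_eq_one_left o] at this
    exact absurd (nc _ this.symm (by rw [e, ← mul_assoc, ← this, mul_assoc, mul_assoc, ← pow_succ, pow_succ']))
      (pow_ne_one_of_lt_orderOf (by omega) (by omega))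
  refine ⟨(a * b) ^ k * a, Y.mul_mem (Y.pow_mem (Y.mul_mem ha hb) k) ha, ?_⟩
  rw [c, two_mul, pow_succ, pow_add] at o
  have f : ρ ^ k * φ a * φ a * (ρ ^ k * φ a)⁻¹ = φ b := by
    have x : ρ ^ k * φ a = φ a * (ρ ^ k)⁻¹ := by rw [eq_mul_inv_iff_mul_eq, mul_assoc, r]; simp
    rw [mul_assoc (ρ ^ k), a2, mul_one, _root_.mul_inv_rev, i, ← mul_assoc, x, e, mul_assoc, ← _root_.mul_inv_rev,
      inv_eq_of_mul_eq_one_right o]
  have w : ρ ^ k * φ a * (ρ ^ k * φ a) = 1 := by rw [mul_assoc, ← mul_assoc (φ a), r]; simp [mul_assoc, a2]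
  rw [map_mul, map_pow, hr]
  refine ⟨f, ?_⟩
  rw [← f, inv_eq_of_mul_eq_one_left w]
  generalize ρ ^ k * φ a = x at w
  rw [← mul_assoc, ← mul_assoc, w, one_mul, mul_assoc, w, mul_one]

theorem lemE {H S : Type*} [Group H] [Finite H] [Group S] (φ : H →* S) {Y : Subgroup H} {a a' b : H} (ha : a ∈ Y) (ha' : a' ∈ Y)
    (hb : b ∈ Y) (a2 : φ a * φ a = 1) (a2' : φ a' * φ a' = 1) (b2 : φ b * φ b = 1) (c : φ a * φ a' = φ a' * φ a)
    (nc : ∀ u, u * φ a = φ a * u → u * φ b = φ b * u → u = 1) (nc' : ∀ u, u * φ a' = φ a' * u → u * φ b = φ b * u → u = 1) :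
    ∃ η ∈ Y, φ (η * a) = φ (a' * η) ∧ φ (η * b * η⁻¹ * b) = φ (b * (η * b * η⁻¹)) := by
  obtain ⟨v, hv, v1, v2⟩ := dih φ ha hb a2 b2 nc
  obtain ⟨w, hw, w1, w2⟩ := dih φ ha' hb a2' b2 nc'
  refine ⟨w * v, Y.mul_mem hw hv, ?_, ?_⟩ <;> simp only [map_mul, map_inv]
  · rw [← w2, ← v1]; group
  · rw [show φ w * φ v * φ b * (φ w * φ v)⁻¹ = φ w * φ a * (φ w)⁻¹ by rw [← v2]; group, ← w1, conj_mul, conj_mul, c]

section
variable {H : Type*} [Group H] (φ : H →* SL2 K) {g h z : H} {l : K}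

/-- the shape of the representation -/
structure Rp (φ : H →* SL2 K) (g h z : H) (l ω : K) : Prop where
  l0 : l ≠ 0
  w : ω * ω + ω + 1 = 0
  g : φ g = up l
  h : φ h = lo 1
  z : φ z 0 0 = ω ∧ φ z 0 1 = 0 ∧ φ z 1 0 = 0 ∧ φ z 1 1 = ω * ω

namespace Rp
variable {φ} (r : Rp φ g h z l ω)
include r

omit [CharP K 2] in
theorem w3 : ω * ω * ω = 1 := by linear_combination (ω - 1) * r.w
omit [CharP K 2] in
theorem w0 : ω ≠ 0 := fun e => by simpa [e] using r.w
theorem w1 : ω ≠ 1 := fun e => by have := r.w; rw [e] at this; exact one_ne_zero (α := K) (by linear_combination this - tw K)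

omit [CharP K 2] in
theorem zu (t : K) : φ z * up t * (φ z)⁻¹ = up (ω * ω * t) := mul_inv_eq_iff_eq_mul.2 (ex2 (by simp [ent, upe, r.z])
  (by simp only [ent, upe, r.z]; linear_combination (-ω * t) * r.w3) (by simp [ent, upe, r.z]) (by simp [ent, upe, r.z]))

omit [CharP K 2] in
theorem zl (t : K) : φ z * lo t * (φ z)⁻¹ = lo (ω * t) := mul_inv_eq_iff_eq_mul.2 (ex2 (by simp [ent, loe, r.z])
  (by simp [ent, loe, r.z]) (by simp only [ent, loe, r.z]; ring) (by simp [ent, loe, r.z]))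

theorem t3 {C : Subgroup H} [C.Normal] (k : ∀ c ∈ C, φ c 1 0 = 0) {c : H} (hc : c ∈ C) : φ c = 1 := by
  have f : ∀ x s, φ x = lo s → s * (φ c 0 0 + φ c 1 1 + s * φ c 0 1) = 0 := fun x s e => by
    have := k _ (Subgroup.Normal.conj_mem ‹_› c hc x)
    rw [map_mul, map_mul, map_inv, e, inv_eq_of_mul_eq_one_left (lo_sq s)] at this
    simp only [ent, loe, k c hc] at this
    linear_combination this
  have a := f _ _ r.h
  have b := f (z * h * z⁻¹) _ (by rw [map_mul, map_mul, map_inv, r.h, r.zl])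
  replace b := (mul_eq_zero.1 b).resolve_left (by simpa using r.w0)
  have b0 : φ c 0 1 = 0 := mul_left_cancel₀ (sub_ne_zero.2 r.w1) (by linear_combination b - a)
  have d := dt (φ c)
  have e : φ c 0 0 = φ c 1 1 := by rw [b0] at a; linear_combination a - φ c 1 1 * tw K
  have e1 : φ c 1 1 = 1 := sq1 (by rw [b0, e] at d; linear_combination d)
  exact ex2 (e.trans e1) b0 (k c hc) e1

theorem nc {M C : Subgroup H} [M.Normal] [C.Normal] (k : ∀ x ∈ M, ∀ c ∈ C, φ c * φ x = φ x * φ c) :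
    (∀ x ∈ M, φ x = 1) ∨ ∀ c ∈ C, φ c = 1 := by
  by_cases a : ∀ x ∈ M, φ x 1 0 = 0
  · exact .inl fun x => r.t3 a
  push Not at a
  obtain ⟨x, hx, x0⟩ := a
  refine .inr fun c => r.t3 fun c hc => by_contra fun c0 => ?_
  have f : ∀ y t, φ y = up t → t ≠ 0 → φ x 0 0 + φ x 1 1 + t * φ x 1 0 = 0 := fun y t e t0 => by
    have a := k _ (Subgroup.Normal.conj_mem ‹_› x hx y) c hc
    rw [map_mul, map_mul, map_inv, e, inv_eq_of_mul_eq_one_left (up_sq t)] at a
    have a := ee a 0 0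
    have b := ee (k x hx c hc) 0 0
    simp only [ent, upe] at a b
    exact mul_left_cancel₀ (mul_ne_zero t0 c0) (by linear_combination b - a)
  have a := f _ _ r.g r.l0
  have b := f (z * g * z⁻¹) _ (by rw [map_mul, map_mul, map_inv, r.g, r.zu]) (by simp [r.w0, r.l0])
  exact r.w1 (sq1 (mul_left_cancel₀ (mul_ne_zero x0 r.l0) (by linear_combination b - a)))

theorem three [Finite H] {Θ : Subgroup H} (p : ¬ 3 ∣ Nat.card Θ) {k : H} (k0 : φ k 1 0 ≠ 0) (a : g ∈ Θ) (b : z * g * z⁻¹ ∈ Θ)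
    (c : k * g * k⁻¹ ∈ Θ) : False := by
  have e : φ (z * g * z⁻¹) = up (ω * ω * l) := by rw [map_mul, map_mul, map_inv, r.g, r.zu]
  have n : φ (k * g * k⁻¹) 1 0 ≠ 0 := fun n => by
    have e : φ (k * g * k⁻¹) * φ k = φ k * up l := by rw [← r.g, ← map_mul, ← map_mul, inv_mul_cancel_right]
    have a := ee e 1 0
    have b := ee e 1 1
    simp only [ent _ (φ k), ent (φ k), upe, n] at a b
    exact mul_ne_zero (mul_ne_zero k0 k0) r.l0 (by linear_combination φ k 1 1 * a - φ k 1 0 * b)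
  have l1 : ω * ω * l ≠ 0 := by simp [r.w0, r.l0]
  obtain ⟨η, hη, s, -⟩ := lemE φ a b c (r.g ▸ up_sq l) (e ▸ up_sq _) (by rw [← map_mul, conj_mul]; simp [r.g, up_sq])
    (by rw [e, r.g]; exact ex2 (by simp [ent, upe]) (by simp [ent, upe, add_comm]) (by simp [ent, upe]) (by simp [ent, upe]))
    (fun u x y => ncu r.l0 n (r.g ▸ x) y) fun u x y => ncu l1 n (e ▸ x) y
  rw [map_mul, map_mul φ _ η, e, r.g] at s
  obtain ⟨s0, s1⟩ := mv_up r.l0 s
  have d := dt (φ η)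
  have s2 : φ η 0 0 = ω := sq1 (mul_left_cancel₀ r.l0 (by rw [s0] at d; linear_combination φ η 0 0 * s1 + ω * ω * l * d))
  have := (pw00 s0 (Nat.card Θ)).2
  rw [← map_pow, show η ^ Nat.card Θ = 1 from congrArg Subtype.val (pow_card_eq_one' (x := (⟨η, hη⟩ : Θ))), map_one, s2,
    one_e.1] at this
  refine r.w1 ?_
  rw [← orderOf_eq_one_iff, ← Nat.dvd_one, ← (Nat.coprime_comm.1 ((Nat.Prime.coprime_iff_not_dvd Nat.prime_three).2 p))]
  exact Nat.dvd_gcd (orderOf_dvd_of_pow_eq_one this.symm) (orderOf_dvd_of_pow_eq_one (by rw [← r.w3]; ring))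

theorem fix [Finite H] (σ : H →* H) (s3 : ∀ x, σ (σ (σ x)) = x) (sg : σ g = g) (sz : σ z = z) (sh : σ h = z⁻¹ * h * z) :
    ∃ k, φ (σ k) = φ k ∧ φ (σ (σ k)) = φ k ∧ φ k 1 0 ≠ 0 := by
  by_cases A : ∀ x ∈ (φ.comp σ).ker ⊓ (φ.comp (σ.comp σ)).ker, φ x = 1
  swap
  · obtain ⟨x, ⟨x1, x2⟩, x0⟩ : ∃ x ∈ (φ.comp σ).ker ⊓ (φ.comp (σ.comp σ)).ker, φ x 1 0 ≠ 0 := by
      by_contra! k
      exact A fun x => r.t3 k
    replace x1 : φ (σ x) = 1 := x1
    replace x2 : φ (σ (σ x)) = 1 := x2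
    exact ⟨x * σ x * σ (σ x), by simp [s3, x1, x2], by simp [s3, x1, x2], by simpa [x1, x2]⟩
  have i : ∀ x, φ x = 1 → φ (σ x) = 1 := fun x e => by
    rcases r.nc (M := (φ.comp σ).ker) (C := (φ.comp (σ.comp σ)).ker) fun x hx c hc => by
      rw [← commutatorElement_eq_one_iff_mul_comm, ← map_commutatorElement]
      refine A _ (Subgroup.mem_inf.2 ⟨?_, ?_⟩) <;> rw [MonoidHom.mem_ker, map_commutatorElement]
      · rw [MonoidHom.mem_ker.1 hx, commutatorElement_one_right]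
      · rw [MonoidHom.mem_ker.1 hc, commutatorElement_one_left] with k | k
    · exact k _ (k (σ (σ x)) (by simpa [s3] using e))
    · exact k _ (by simpa [s3] using e)
  have j : ∀ {x y}, φ x = φ y → φ (σ x) = φ (σ y) := fun {x y} e => by
    have := i (x * y⁻¹) (by simp [e])
    simpa [mul_inv_eq_one] using this
  have e : φ (z * h * z⁻¹) = lo ω := by rw [map_mul, map_mul, map_inv, r.h, r.zl, mul_one]
  have e' : φ (z⁻¹ * h * z) = lo (ω * ω) := by
    have := r.zl (ω * ω)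
    rw [← mul_assoc, r.w3, ← r.h] at this
    rw [map_mul, map_mul, map_inv, ← this]; group
  have n : φ (g * h * g⁻¹) 0 1 ≠ 0 := by
    rw [map_mul, map_mul, map_inv, r.g, r.h, inv_eq_of_mul_eq_one_left (up_sq l)]
    simp only [ent, upe, loe]
    exact fun k => mul_ne_zero r.l0 r.l0 (by linear_combination k - l * tw K)
  obtain ⟨η, -, s, c⟩ := lemE φ (Y := ⊤) (a := h) (a' := z * h * z⁻¹) (b := g * h * g⁻¹) trivial trivial trivial
    (r.h ▸ lo_sq 1) (e ▸ lo_sq _) (by rw [← map_mul, conj_mul]; simp [r.h, lo_sq])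
    (by rw [e, r.h]; exact ex2 (by simp [ent, loe]) (by simp [ent, loe]) (by simp [ent, loe, add_comm]) (by simp [ent, loe]))
    (fun u x y => ncl one_ne_zero n (r.h ▸ x) y) fun u x y => ncl r.w0 n (e ▸ x) y
  have key : ∀ (m : SL2 K) (s t : K), s ≠ 0 → m * lo s = lo (ω * s) * m → t ≠ 0 →
      m * (φ g * lo t * (φ g)⁻¹) * m⁻¹ * (φ g * lo t * (φ g)⁻¹) = φ g * lo t * (φ g)⁻¹ * (m * (φ g * lo t * (φ g)⁻¹) * m⁻¹) →
      m 0 0 = ω ∧ m 0 1 = 0 ∧ l * m 1 0 = 1 ∧ m 1 1 = ω * ω := fun m s t s0 a t0 b => by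
    obtain ⟨a0, a1⟩ := mv_lo s0 a
    have d := dt m
    replace a1 : m 1 1 = ω * m 0 0 := mul_left_cancel₀ s0 (by linear_combination a1)
    have a2 : m 0 0 = ω := sq1 (mul_left_cancel₀ r.w0 (by rw [a0, a1] at d; linear_combination d - r.w3))
    have b1 := cl t0 (m := (φ g)⁻¹ * m * φ g * lo t * ((φ g)⁻¹ * m * φ g)⁻¹) (by
      rw [← mul_left_inj (φ g)⁻¹, ← mul_right_inj (φ g)]
      convert b using 1 <;> group)
    have b2 := (mv_lo t0 (mul_inv_eq_iff_eq_mul.1 b1)).1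
    rw [r.g, inv_eq_of_mul_eq_one_left (up_sq l)] at b2
    simp only [ent, upe, a0, a1, a2] at b2
    exact ⟨a2, a0, mul_left_cancel₀ r.l0 (by linear_combination b2 - l * r.w), a2 ▸ a1⟩
  have k1 := key (φ η) 1 1 one_ne_zero (by rw [mul_one, ← e, ← r.h, ← map_mul, s, map_mul]) one_ne_zero
    (by simpa only [map_mul, map_inv, r.h] using c)
  have w2 := mul_ne_zero r.w0 r.w0
  have k2 := key (φ (σ η)) (ω * ω) (ω * ω) w2 (by
    have := j s
    simp only [map_mul σ, map_inv σ, sh, sz] at this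
    rw [← mul_assoc, r.w3, ← e', ← r.h, ← map_mul, this]; simp [mul_assoc]) w2
    (by have := j c; simp only [map_mul σ, map_inv σ, sh, sg] at this; rw [← e']; simpa only [map_mul, map_inv] using this)
  have q : φ (σ η) = φ η := ex2 (k2.1.trans k1.1.symm) (k2.2.1.trans k1.2.1.symm)
    (mul_left_cancel₀ r.l0 (k2.2.2.1.trans k1.2.2.1.symm)) (k2.2.2.2.trans k1.2.2.2.symm)
  exact ⟨η, q, (j q).trans q, fun k => by simpa [k] using k1.2.2.1⟩

end Rp

end

end CF.Mas
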