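import Cfsg.Agent.Mas.A
import Cfsg.Agent.SolvStr.Trans

/-! Two four-groups permuted by a fixed point free element of order three. -/

set_option autoImplicit false
set_option linter.unusedSectionVars false

namespace CF.Mas

open Subgroup Module

section
variable {K : Type*} [Field K] [CharP K 2] {X : Type*} [AddCommGroup X] [Module K X] {N : Type*} [Group N] [Finite N]
  (ρ : N →* End K X) {g h z : N}

omit [Finite N] in
theorem vv (K : Type*) [Field K] [CharP K 2] [Module K X] (v : X) : v + v = 0 := by rw [← two_smul K, tw K, zero_smul]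

theorem rp_of {e f : X} {l ω : K} (l0 : l ≠ 0) (w : ω * ω + ω + 1 = 0) (f0 : f ≠ 0) (ge : ρ g e = e) (gf : ρ g f = l • e + f)
    (he : ρ h e = e + f) (hf : ρ h f = f) (ze : ρ z e = ω • e) (zf : ρ z f = (ω * ω) • f) :
    ∃ (S : Subgroup N) (a : g ∈ S) (b : h ∈ S) (c : z ∈ S) (φ : S →* SL2 K), Rp φ ⟨g, a⟩ ⟨h, b⟩ ⟨z, c⟩ l ω := by
  have e0 : e ≠ 0 := fun k => f0 (by simpa [k] using he.symm)
  have ind : ∀ a b : K, a • e + b • f = 0 → a = 0 ∧ b = 0 := fun a b k => by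
    have := congrArg (ρ h) k
    rw [map_add, map_smul, map_smul, he, hf, map_zero, smul_add, add_right_comm, k, zero_add] at this
    have a0 := (smul_eq_zero.1 this).resolve_right f0
    exact ⟨a0, (smul_eq_zero.1 (by simpa [a0] using k)).resolve_right f0⟩
  have un : ∀ a b c d : K, a • e + b • f = c • e + d • f → a = c ∧ b = d := fun a b c d k =>
    (ind (a - c) (b - d) (by rw [sub_smul, sub_smul, sub_add_sub_comm, k, sub_self])).imp sub_eq_zero.1 sub_eq_zero.1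
  let R (k : N) (M : SL2 K) : Prop := ρ k e = M 0 0 • e + M 1 0 • f ∧ ρ k f = M 0 1 • e + M 1 1 • f
  have ru : ∀ {k M M'}, R k M → R k M' → M = M' := fun a b =>
    have x := un _ _ _ _ (a.1.symm.trans b.1)
    have y := un _ _ _ _ (a.2.symm.trans b.2)
    ex2 x.1 y.1 x.2 y.2
  have rm : ∀ {k k' M M'}, R k M → R k' M' → R (k * k') (M * M') := fun a b => by
    simp only [R, map_mul, End.mul_apply, b.1, b.2, map_add, map_smul, a.1, a.2, ent]
    constructor <;> module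
  have r1 : R 1 1 := by simp [R]
  let T : Submonoid N := ⟨⟨{k | ∃ M, R k M}, fun ⟨_, a⟩ ⟨_, b⟩ => ⟨_, rm a b⟩⟩, _, r1⟩
  let S : Subgroup N := ⟨T, fun {x} hx => by
    rw [inv_eq_of_mul_eq_one_right (show x * x ^ (orderOf x - 1) = 1 by
      rw [← pow_succ', Nat.sub_add_cancel (orderOf_pos x), pow_orderOf_eq_one])]
    exact T.pow_mem hx _⟩
  have rg : R g (up l) := by simp [R, upe, ge, gf]
  have rh : R h (lo 1) := by simp [R, loe, he, hf]
  have w3 : ω * (ω * ω) = 1 := by linear_combination (ω - 1) * w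
  have rz : R z ⟨!![ω, 0; 0, ω * ω], by simp [Matrix.det_fin_two, w3]⟩ := by simp [R, ze, zf]
  refine ⟨S, ⟨_, rg⟩, ⟨_, rh⟩, ⟨_, rz⟩, MonoidHom.mk' (fun k => k.2.choose) fun a b =>
    ru (a * b).2.choose_spec (rm a.2.choose_spec b.2.choose_spec), l0, w, ru (Exists.choose_spec (p := R g) _) rg,
    ru (Exists.choose_spec (p := R h) _) rh, ?_⟩
  simp [MonoidHom.mk', ru (Exists.choose_spec (p := R z) ⟨_, rz⟩) rz]

/-- the filtration -/
def fl (Y H : End K X) : ℕ → Submodule K X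
  | 0 => ⊥
  | m + 1 => (fl Y H m).comap Y ⊓ (fl Y H m).comap H

theorem dich [IsAlgClosed K] [FiniteDimensional K X] (g2 : ρ (g * g) = 1) (h2 : ρ (h * h) = 1) (z3 : ρ z * ρ z + ρ z + 1 = 0)
    (gz : (ρ g + 1) * ρ z = ρ z * ρ z * (ρ g + 1)) (hz : (ρ h + 1) * ρ z = ρ z * ρ z * (ρ h + 1)) :
    (∃ (l ω : K) (S : Subgroup N) (a : g ∈ S) (b : h ∈ S) (c : z ∈ S) (φ : S →* SL2 K), Rp φ ⟨g, a⟩ ⟨h, b⟩ ⟨z, c⟩ l ω) ∨
      ∃ J : Subgroup N, g ∈ J ∧ h ∈ J ∧ ρ.ker ≤ J ∧ z ∈ normalizer (J : Set N) ∧ ∀ k ∈ J, Odd (orderOf k) → ρ k = 1 := by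
  have sq : ∀ {x}, ρ (x * x) = 1 → (ρ x + 1) * (ρ x + 1) = 0 := fun {x} e => by
    rw [mul_add, add_mul, add_mul, ← map_mul, e, one_mul, mul_one, mul_one, add_assoc, ← add_assoc (ρ x), vv K, zero_add, vv K]
  have zz : ρ z * ρ z * ρ z = 1 := by
    rw [← sub_eq_zero, ← mul_zero (ρ z - 1), ← z3]; noncomm_ring
  have eg : ∀ x v, ρ x v = (ρ x + 1) v + v := fun x v => by rw [LinearMap.add_apply, End.one_apply, add_assoc, vv K, add_zero]
  generalize hY : ρ g + 1 = Y at *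
  generalize hH : ρ h + 1 = H at *
  have YY : ∀ v, Y (Y v) = 0 := fun v => LinearMap.congr_fun (hY ▸ sq g2 : Y * Y = 0) v
  have HH : ∀ v, H (H v) = 0 := fun v => LinearMap.congr_fun (hH ▸ sq h2 : H * H = 0) v
  by_cases n : ∃ l : K, l ≠ 0 ∧ (Y * H).HasEigenvalue l
  · obtain ⟨l, l0, hl⟩ := n
    obtain ⟨v, hv⟩ := hl.exists_hasEigenvector
    obtain ⟨θ, hθ⟩ := IsAlgClosed.exists_root (p := (Polynomial.X ^ 2 + Polynomial.X + 1 : Polynomial K)) (by
      rw [show (Polynomial.X ^ 2 + Polynomial.X + 1 : Polynomial K).degree = 2 by compute_degree!]; decide)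
    replace hθ : θ * θ + θ + 1 = 0 := by simpa [sq, pow_two] using hθ
    have cz : Y * H * ρ z = ρ z * (Y * H) := by
      rw [mul_assoc, hz, ← mul_assoc, ← mul_assoc, gz, mul_assoc _ Y, gz, ← mul_assoc, ← mul_assoc, ← mul_assoc, zz, one_mul, mul_assoc]
    have key : ∀ a b : K, a + b = 1 → a * b = 1 → ∃ e : X, ρ z e = a • e ∧ Y (H e) = l • e ∧ e = ρ z v + b • v := fun a b s p => by
      refine ⟨_, ?_, ?_, rfl⟩
      · have := LinearMap.congr_fun z3 v
        simp only [LinearMap.add_apply, End.mul_apply, End.one_apply, LinearMap.zero_apply] at this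
        rw [map_add, map_smul, smul_add, smul_smul, p, one_smul, eq_neg_of_add_eq_zero_left ((add_assoc _ _ _).symm.trans this),
          neg_eq_of_add_eq_zero_left (vv K _), show a = 1 + b by linear_combination s - b * tw K]
        module
      · rw [← End.mul_apply, map_add, map_smul, ← End.mul_apply, cz, End.mul_apply, hv.apply_eq_smul, map_smul]; module
    obtain ⟨ω, e, w, e0, ze, ye⟩ : ∃ (ω : K) (e : X), ω * ω + ω + 1 = 0 ∧ e ≠ 0 ∧ ρ z e = ω • e ∧ Y (H e) = l • e := by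
      have s : θ + θ * θ = 1 := by linear_combination hθ - tw K
      have p : θ * (θ * θ) = 1 := by linear_combination (θ - 1) * hθ
      obtain ⟨e, a, b, c⟩ := key _ _ s p
      obtain ⟨e', a', b', c'⟩ := key _ _ (add_comm θ _ ▸ s) (mul_comm θ _ ▸ p)
      by_cases e0 : e = 0
      · refine ⟨_, e', by linear_combination (θ * θ - θ + 1) * hθ, fun k => hv.2 ?_, a', b'⟩
        have := c.symm.trans (e0.trans (k.symm.trans c'))
        rw [add_right_inj] at this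
        rw [← one_smul K v, ← s, add_smul, this, vv K]
      · exact ⟨_, e, hθ, e0, a, b⟩
    have y0 : Y e = 0 := (smul_eq_zero.1 (by rw [← map_smul, ← ye, YY])).resolve_left l0
    have zf : ρ z (ρ z (H e)) = ω • H e := by
      rw [← map_smul, ← ze]; exact (LinearMap.congr_fun hz e).symm
    refine .inl ⟨l, ω, rp_of ρ (e := e) (f := H e) l0 w (fun k => smul_ne_zero l0 e0 (by rw [← ye, k, map_zero]))
      (by rw [eg, hY, y0, zero_add]) (by rw [eg, hY, ye]) (by rw [eg, hH, add_comm]) (by rw [eg, hH, HH, zero_add]) ze ?_⟩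
    have := LinearMap.congr_fun zz (ρ z (H e))
    rw [End.one_apply, End.mul_apply, End.mul_apply, zf, map_smul, map_smul, zf, smul_smul] at this
    exact this.symm
  have mo : ∀ m, fl Y H m ≤ fl Y H (m + 1) := fun m => by
    induction m with
    | zero => exact bot_le
    | succ m ih => exact inf_le_inf (Submodule.comap_mono ih) (Submodule.comap_mono ih)
  have zi : ∀ m, ∀ v ∈ fl Y H m, ρ z v ∈ fl Y H m := fun m => by
    induction m with
    | zero => exact fun v hv => by rw [(Submodule.mem_bot K).1 hv, map_zero]; exact zero_mem _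
    | succ m ih =>
      refine fun v hv => ⟨show (Y * ρ z) v ∈ fl Y H m from ?_, show (H * ρ z) v ∈ fl Y H m from ?_⟩
      exacts [gz ▸ ih _ (ih _ hv.1), hz ▸ ih _ (ih _ hv.2)]
  let T : Submonoid N := ⟨⟨{k | ∀ m, ∀ v ∈ fl Y H (m + 1), ρ k v - v ∈ fl Y H m}, fun {a b} ha hb m v hv => by
    rw [map_mul, End.mul_apply, ← sub_add_sub_cancel _ (ρ b v)]
    exact add_mem (ha m _ (by simpa using add_mem (mo m (hb m v hv)) hv)) (hb m v hv)⟩, fun m v _ => by simp⟩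
  let J : Subgroup N := ⟨T, fun {x} hx => by
    rw [inv_eq_of_mul_eq_one_right (show x * x ^ (orderOf x - 1) = 1 by
      rw [← pow_succ', Nat.sub_add_cancel (orderOf_pos x), pow_orderOf_eq_one])]
    exact T.pow_mem hx _⟩
  refine .inr ⟨J, fun m v hv => by rw [eg, hY, add_sub_cancel_right]; exact hv.1, fun m v hv => by
    rw [eg, hH, add_sub_cancel_right]; exact hv.2, fun k hk m v _ => by simp [MonoidHom.mem_ker.1 hk],
    CF.BG.mem_norm_of_cj_le fun k hk' => ?_, fun k hk o => ?_⟩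
  · obtain ⟨k, hk, rfl⟩ := CF.BG.mem_cj_iff.1 hk'
    intro m v hv
    have e : ρ z⁻¹ v = ρ z (ρ z v) := by
      rw [← End.mul_apply, ← one_mul (ρ z⁻¹), ← zz, mul_assoc, ← map_mul ρ z z⁻¹, mul_inv_cancel, map_one, mul_one]
    have := zi _ _ (hk m _ (zi _ _ (zi _ _ hv)))
    rw [map_sub, ← e, ← End.mul_apply (ρ z) (ρ z⁻¹), ← map_mul, mul_inv_cancel, map_one, End.one_apply] at this
    simpa only [map_mul, End.mul_apply] using this
  have t : ∀ m, ∀ v ∈ fl Y H m, ρ k v = v := fun m => by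
    induction m with
    | zero => exact fun v hv => by rw [(Submodule.mem_bot K).1 hv, map_zero]
    | succ m ih =>
      intro v hv
      have a := ih _ (hk m v hv)
      have b : ρ (k ^ 2) v = v := by
        rw [map_sub, sub_eq_iff_eq_add] at a
        rw [pow_two, map_mul, End.mul_apply, a, sub_add_eq_add_sub, vv K, zero_sub, neg_eq_of_add_eq_zero_left (vv K _)]
      obtain ⟨j, c⟩ := exists_pow_eq_self_of_coprime (x := k) (n := 2) (by simpa using o)
      rw [← c, map_pow, End.pow_apply]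
      exact Function.IsFixedPt.iterate b j
  have u : ∀ m v, Y v = 0 → ((Y * H) ^ m) v = 0 → v ∈ fl Y H (2 * m) := fun m => by
    induction m with
    | zero => exact fun v _ e => e
    | succ m ih => exact fun v a b => ⟨by simp [a], ih _ (YY _) (by rwa [pow_succ] at b), by simp [HH]⟩
  ext v
  obtain ⟨m, hm⟩ : IsNilpotent (Y * H) := by
    rw [End.isNilpotent_iff_of_finite]
    intro v
    have : v ∈ (Y * H).maxGenEigenspace 0 := by
      refine (le_of_eq_of_le (End.iSup_maxGenEigenspace_eq_top (Y * H)).symm (iSup_le fun μ => ?_)) trivial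
      by_cases e : μ = 0
      · rw [e]
      · by_contra k
        exact n ⟨μ, e, End.HasUnifEigenvalue.lt (k := ⊤) zero_lt_one fun x => k (x.trans_le bot_le)⟩
    simpa [End.mem_maxGenEigenspace] using this
  exact t (2 * m + 2) v ⟨mo _ (u m _ (YY v) (by simp [hm])), u m _ (YY _) (by simp [hm]), by simp [HH]⟩

end

section
open CF.BG CF.Sig
open scoped commutatorElement
variable {G : Type*} [Group G] {D Θ : Subgroup G} {a g h z : G}

/-- additive functions on `D` -/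
def AX (K : Type*) [Field K] (D : Subgroup G) : Submodule K (G → K) where
  carrier := {f | (∀ a ∈ D, ∀ b ∈ D, f (a * b) = f a + f b) ∧ ∀ a ∉ D, f a = 0}
  add_mem' := fun hx hy => ⟨fun a ha b hb => by simp only [Pi.add_apply, hx.1 a ha b hb, hy.1 a ha b hb]; ring,
    fun a ha => by simp [hx.2 a ha, hy.2 a ha]⟩
  zero_mem' := ⟨by simp, by simp⟩
  smul_mem' := fun c x hx => ⟨fun a ha b hb => by simp [hx.1 a ha b hb, mul_add], fun a ha => by simp [hx.2 a ha]⟩

/-- the action on additive functions -/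
def rho (K : Type*) [Field K] (D : Subgroup G) [n : D.Normal] : G →* End K (AX K D) where
  toFun k := (LinearMap.funLeft K K fun d => k⁻¹ * d * k).restrict fun f hf => ⟨fun a ha b hb => by
    simp only [LinearMap.funLeft_apply]
    rw [← hf.1 _ (n.conj_mem' a ha k) _ (n.conj_mem' b hb k)]; congr 1; group,
    fun a ha => hf.2 _ fun e => ha (by simpa [mul_assoc] using n.conj_mem _ e k)⟩
  map_one' := by ext f d; simp
  map_mul' x y := by ext f d; simp [mul_assoc]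

variable {K : Type*} [Field K] [CharP K 2]

theorem rho_ext [D.Normal] {A B : End K (AX K D)} (k : ∀ f : AX K D, ∀ d ∈ D, (A f).1 d = (B f).1 d) : A = B := by
  ext f d
  by_cases e : d ∈ D
  exacts [k f d e, ((A f).2.2 d e).trans ((B f).2.2 d e).symm]

theorem rho_ap [D.Normal] (k : G) (f : AX K D) (d : G) : (rho K D k f).1 d = f.1 (k⁻¹ * d * k) := rfl

theorem ax1 (f : AX K D) : f.1 1 = 0 := by simpa using f.2.1 1 (one_mem _) 1 (one_mem _)

theorem rho_D [D.Normal] (ha : a ∈ D) : rho K D a = 1 := rho_ext fun f d hd => by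
  rw [rho_ap, f.2.1 _ (mul_mem (inv_mem ha) hd) _ ha, f.2.1 _ (inv_mem ha) _ hd, add_right_comm, ← f.2.1 _ (inv_mem ha) _ ha,
    inv_mul_cancel, ax1, zero_add, End.one_apply]

theorem rho_anti [n : D.Normal] {Y : Subgroup G} (l : D ≤ Y) (hg : g ∈ Y)
    (c : ∀ y ∈ Y, y * (z⁻¹ * y * z) = z⁻¹ * y * z * y) : (rho K D g + 1) * rho K D z = rho K D z * rho K D z * (rho K D g + 1) :=
  rho_ext fun f d hd => by
  have he := n.conj_mem' d hd z
  have e : ∀ e ∈ D, e * (g⁻¹ * (z⁻¹ * e * z) * g) = z⁻¹ * e * z * ((z⁻¹ * g * z)⁻¹ * e * (z⁻¹ * g * z)) := fun e he => by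
    rw [← mul_left_inj (g⁻¹ * (z⁻¹ * g⁻¹ * z))]
    calc _ = e * g⁻¹ * (z⁻¹ * (e * g⁻¹) * z) := by group
      _ = _ := by rw [c _ (mul_mem (l he) (inv_mem hg)), c _ (inv_mem hg)]; group
  have := congrArg f.1 (e _ he)
  rw [f.2.1 _ he _ (n.conj_mem' _ (n.conj_mem' _ he z) g), f.2.1 _ (n.conj_mem' _ he z) _ (n.conj_mem' _ he _),
    show (z⁻¹ * g * z)⁻¹ * (z⁻¹ * d * z) * (z⁻¹ * g * z) = z⁻¹ * (g⁻¹ * d * g) * z by group] at this
  simp only [End.mul_apply, LinearMap.add_apply, End.one_apply, Submodule.coe_add, Pi.add_apply, rho_ap, map_add]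
  linear_combination this + (f.1 (z⁻¹ * (g⁻¹ * d * g) * z) - f.1 (g⁻¹ * (z⁻¹ * (z⁻¹ * d * z) * z) * g)) * tw K

variable [Finite G]

theorem fp3 {Y : Subgroup G} (z3 : z ^ 3 = 1) (n : z ∈ 𝐍 Y) (f : Y ⊓ 𝐂₁ z = ⊥) :
    (∀ y ∈ Y, y * (z⁻¹ * y * z) * (z⁻¹ * (z⁻¹ * y * z) * z) = 1) ∧ ∀ y ∈ Y, y * (z⁻¹ * y * z) = z⁻¹ * y * z * y := by
  have a : ∀ y ∈ Y, y * (z⁻¹ * y * z) * (z⁻¹ * (z⁻¹ * y * z) * z) = 1 := fun y hy => by
    obtain ⟨x, e⟩ := Finite.surjective_of_injective (f := fun x : Y => (⟨x * (z⁻¹ * x * z)⁻¹,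
      mul_mem x.2 (inv_mem (conj_mem_of_norm' n x.2))⟩ : Y)) (fun x w e => by
        have e' : (x : G) * (z⁻¹ * x * z)⁻¹ = w * (z⁻¹ * w * z)⁻¹ := congrArg Subtype.val e
        refine Subtype.ext (inv_mul_eq_one.1 (eq_one_of_mem_bot f (mem_inf.2 ⟨Y.mul_mem (Y.inv_mem w.2) x.2, mem_cent1.2 (Eq.symm ?_)⟩))).symm
        calc _ = z * ((w : G)⁻¹ * (x * (z⁻¹ * x * z)⁻¹) * (z⁻¹ * x * z)) := by simp [mul_assoc]
          _ = _ := by rw [e']; simp [mul_assoc]) ⟨y, hy⟩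
    obtain rfl : (x : G) * (z⁻¹ * x * z)⁻¹ = y := congrArg Subtype.val e
    calc _ = (x : G) * (z * z * z)⁻¹ * (x : G)⁻¹ * (z * z * z) := by simp [mul_assoc]
      _ = 1 := by rw [← pow_three', z3]; simp
  refine ⟨a, fun y hy => inv_injective ((inv_eq_of_mul_eq_one_right (a y hy)).trans (inv_eq_of_mul_eq_one_left ?_).symm)⟩
  rw [← inv_eq_one, ← a _ (inv_mem hy)]; simp [mul_assoc]

theorem faith [D.Normal] (pD : PiGrp {2} D) (pa : PiElt {2}ᶜ a) (e : rho K D a = 1) : a ∈ 𝐂 D := by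
  classical
  by_contra k
  have n : zpowers a ≤ 𝐍 D := le_top.trans (normalizer_eq_top D).ge
  have l : D ⊓ 𝐂 (zpowers a) < D := inf_lt_left.2 fun l => k (cent_symm l (mem_zpowers a))
  have l2 := pD.logn_lt l
  obtain ⟨L, l3, l4, l5⟩ := pD.exists_logn_between l.le (n := logn 2 (♯D) - 1) (by omega) (by omega)
  have i : L.relIndex D = 2 := by
    have := logn_card_eq_add (p := 2) l4
    rw [(pD.relIndex L).eq_pow_logn (relIndex_ne_zero' _ _), show logn 2 (L.relIndex D) = 1 by omega, pow_one]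
  let f : AX K D := ⟨fun d => if d ∈ D ∧ d ∉ L then 1 else 0, fun x hx y hy => by
    have := mul_mem_iff_of_index_two (H := L.subgroupOf D) i (a := ⟨x, hx⟩) (b := ⟨y, hy⟩)
    simp only [mem_subgroupOf, coe_mul] at this
    by_cases u : x ∈ L <;> by_cases v : y ∈ L <;> simp [this, u, v, hx, hy, mul_mem hx hy, CharTwo.add_self_eq_zero],
    fun x hx => by simp [hx]⟩
  have t : D ≤ L := (comm_sup_inf_cent n (pa.zpowers.coprime' pD) (.inr pD.sol)).ge.trans (sup_le (commutator_le.2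
    fun d hd u hu => by
      have m := conj_mem_of_norm (n hu) (inv_mem hd)
      have x : f.1 (u * d⁻¹ * u⁻¹) = f.1 d⁻¹ := by
        have := rho_ap u⁻¹ f d⁻¹
        rw [MonoidHom.mem_ker.1 (zpowers_le.2 (MonoidHom.mem_ker.2 e) (inv_mem hu)), inv_inv] at this
        exact this.symm
      have y := f.2.1 _ hd _ m
      rw [x, ← f.2.1 _ hd _ (inv_mem hd), mul_inv_cancel, ax1] at y
      by_contra k'
      exact one_ne_zero (α := K) ((if_pos ⟨mul_mem hd m, by simpa [commutatorElement_def, mul_assoc] using k'⟩).symm.trans y)) l3)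
  rw [relIndex_eq_one.2 t] at i
  omega

theorem core [D.Normal] (pD : PiGrp {2} D) (cD : 𝐂 D ≤ D) {Y₁ Y₂ : Subgroup G} (l1 : D ≤ Y₁) (l2 : D ≤ Y₂) (hg : g ∈ Y₁)
    (hh : h ∈ Y₂) (g2 : g * g ∈ D) (h2 : h * h ∈ D) (z3 : z ^ 3 = 1) (a3 : a ^ 3 = 1) (az : a * z = z * a) (ag : a * g = g * a)
    (ah : a * z * h = h * (a * z)) (n1 : z ∈ 𝐍 Y₁) (n2 : z ∈ 𝐍 Y₂) (f1 : Y₁ ⊓ 𝐂₁ z = ⊥) (f2 : Y₂ ⊓ 𝐂₁ z = ⊥)
    (pΘ : PiGrp {3}ᶜ Θ) (nΘ : 𝐂₁ a ≤ 𝐍 Θ) (gΘ : g ∈ Θ)
    (full : ∀ x, x ^ 3 = 1 → x * a = a * x → x * z = z * x → ∃ i j : ℕ, x = z ^ j * a ^ i) :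
    ∃ J, PiGrp {2} J ∧ D ≤ J ∧ g ∈ J ∧ h ∈ J ∧ z ∈ 𝐍 J := by
  let K := AlgebraicClosure (ZMod 2)
  obtain ⟨c0, c1⟩ := fp3 z3 n1 f1
  rcases dich (rho K D) (rho_D g2) (rho_D h2) (rho_ext fun f d hd => by
    have m := Normal.conj_mem' ‹_› d hd z
    have := congrArg f.1 (c0 d (l1 hd))
    rw [f.2.1 _ (mul_mem hd m) _ (Normal.conj_mem' ‹_› _ m z), f.2.1 _ hd _ m, ax1] at this
    simp only [End.mul_apply, LinearMap.add_apply, End.one_apply, Submodule.coe_add, Pi.add_apply, rho_ap, LinearMap.zero_apply,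
      Submodule.coe_zero, Pi.zero_apply]
    linear_combination this) (rho_anti l1 hg c1) (rho_anti l2 hh (fp3 z3 n2 f2).2) with
    ⟨l, ω, S, gS, hS, zS, φ, r⟩ | ⟨J, a1, a2, a3, a4, a5⟩
  swap
  · refine ⟨J, piGrp_of_forall_elt fun k hk => ?_, fun d hd => a3 (rho_D hd), a1, a2, a4⟩
    obtain ⟨u, v, -, hv, pu, pv, rfl⟩ := exists_piPart {2} k
    rw [(pD.elt (cD (faith pD pv (a5 v (zpowers_le.2 hk hv) (Nat.not_even_iff_odd.1 fun e =>
      (piNat_compl_single Nat.prime_two).1 pv e.two_dvd))))).eq_one pv, mul_one]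
    exact pu
  exfalso
  have ah' : a * h * a⁻¹ = z⁻¹ * h * z := by
    rw [mul_inv_eq_iff_eq_mul, mul_assoc, mul_assoc, ← az, ← ah, az]; group
  let H := closure {g, h, z}
  have gH : g ∈ H := subset_closure (by simp)
  have hH : h ∈ H := subset_closure (by simp)
  have zH : z ∈ H := subset_closure (by simp)
  have HS : H ≤ S := (closure_le _).2 (by simp [Set.insert_subset_iff, gS, hS, zS])
  have nH : a ∈ 𝐍 H := mem_norm_of_cj_le (cj_le_iff.2 ((closure_le _).2 (by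
    simp only [Set.insert_subset_iff, Set.singleton_subset_iff, SetLike.mem_coe, mem_cj_inv, ag, az, ah', mul_inv_cancel_right]
    exact ⟨gH, mul_mem (mul_mem (inv_mem zH) hH) zH, zH⟩)))
  let σ : H →* H := (H.normalizerMonoidHom ⟨a, nH⟩).toMonoidHom
  have sx : ∀ x : H, (σ x : G) = a * x * a⁻¹ := fun x => rfl
  have s3 : ∀ x, σ (σ (σ x)) = x := fun x => Subtype.ext (by
    rw [sx, sx, sx]
    calc _ = a ^ 3 * x * (a ^ 3)⁻¹ := by simp [pow_succ, mul_assoc]
      _ = _ := by simp [a3])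
  generalize hψ : φ.comp (inclusion HS) = ψ
  have r' : Rp ψ ⟨g, gH⟩ ⟨h, hH⟩ ⟨z, zH⟩ l ω := hψ ▸ ⟨r.l0, r.w, r.g, r.h, r.z⟩
  clear hψ r φ
  obtain ⟨k, k1, k2, k0⟩ := r'.fix σ s3 (Subtype.ext (by rw [sx, ag, mul_inv_cancel_right]))
    (Subtype.ext (by rw [sx, az, mul_inv_cancel_right])) (Subtype.ext ah')
  let Φ := ψ.prod ((ψ.comp σ).prod (ψ.comp (σ.comp σ)))
  have p3 : ¬ 3 ∣ Nat.card Φ.ker := fun d => by
    have pF : PiGrp {3} (zpowers a ⊔ zpowers z) := (piElt_of_pow_eq_one Nat.prime_three a3).zpowers.sup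
      (piElt_of_pow_eq_one Nat.prime_three z3).zpowers (.inl (norm_of_cent (zpowers_le.2 (cent_zpowers z ▸ mem_cent1.2 az))))
    have t : ∀ {u}, (∀ y ∈ Φ.ker, ∃ y' ∈ Φ.ker, (y' : G) = u * y * u⁻¹) → zpowers u ≤ 𝐍 (Φ.ker.map H.subtype) := fun k =>
      zpowers_le.2 (mem_norm_of_cj_le fun x hx => by
        obtain ⟨_, ⟨y, hy, rfl⟩, rfl⟩ := mem_cj_iff.1 hx
        exact k y hy)
    obtain ⟨T, s, nT⟩ := exists_syl_norm (K := Φ.ker.map H.subtype) pF (sup_le (t fun y hy => ⟨σ y, by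
      simp only [Φ, MonoidHom.mem_ker, MonoidHom.prod_apply, MonoidHom.comp_apply, Prod.mk_eq_one, s3] at hy ⊢
      exact ⟨hy.2.1, hy.2.2, hy.1⟩, rfl⟩) (t fun y hy => ⟨_, Normal.conj_mem inferInstance y hy ⟨z, zH⟩, rfl⟩))
    obtain ⟨X, hX⟩ := s.pi.inf_left.exists_elem_one (pF.inf_cent_ne_bot s.pi nT (s.syl_ne_bot Nat.prime_three
      (by rwa [CF.BG.card_map H.subtype_injective])))
    obtain ⟨x, x1, hx, -⟩ := hX.exists_gen
    have cx := (hX.le hx).2
    obtain ⟨i, j, e⟩ := full x (hX.ab.pow x hx) (cx a (mem_sup_left (mem_zpowers a))).symm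
      (cx z (mem_sup_right (mem_zpowers z))).symm
    obtain ⟨y, hy, rfl⟩ := s.le (hX.le hx).1
    have y1 : ψ y = 1 := congrArg Prod.fst hy
    replace e : (y : G) = z ^ j * a ^ i := e
    have q : ∀ (u : H) (n : ℕ) (w : G), w * u = u * w → (y : G) = z ^ n * w → ψ (⟨z, zH⟩ ^ n * u * (⟨z, zH⟩ ^ n)⁻¹) = ψ u :=
      fun u n w c e => by
      rw [show ⟨z, zH⟩ ^ n * u * (⟨z, zH⟩ ^ n)⁻¹ = y * u * y⁻¹ from Subtype.ext (by simp [e, mul_assoc, ← mul_assoc w, c]),
        map_mul, map_mul, map_inv, y1]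
      simp
    have u1 : ∀ n : ℕ, ψ (⟨z, zH⟩ ^ n * ⟨g, gH⟩ * (⟨z, zH⟩ ^ n)⁻¹) = up (ω ^ (2 * n) * l) := fun n => by
      induction n with
      | zero => simpa using r'.g
      | succ n ih =>
        rw [pow_succ', mul_inv_rev, ← mul_assoc, mul_assoc _ _ (⟨g, gH⟩ : H), mul_assoc _ (_ * _), map_mul, map_mul, map_inv, ih,
          r'.zu]
        congr 1; ring
    have u2 : ∀ n : ℕ, ψ (⟨z, zH⟩ ^ n * ⟨h, hH⟩ * (⟨z, zH⟩ ^ n)⁻¹) = lo (ω ^ n) := fun n => by
      induction n with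
      | zero => simpa using r'.h
      | succ n ih =>
        rw [pow_succ', mul_inv_rev, ← mul_assoc, mul_assoc _ _ (⟨h, hH⟩ : H), mul_assoc _ (_ * _), map_mul, map_mul, map_inv, ih,
          r'.zl, pow_succ']
    have := Fact.mk Nat.prime_three
    have o : orderOf ω = 3 := orderOf_eq_prime (by rw [← r'.w3]; ring) r'.w1
    have v1 := ee ((u1 j).symm.trans ((q ⟨g, gH⟩ j _ (Commute.pow_left ag i).eq e).trans r'.g)) 0 1
    have v2 := ee ((u2 (j + 2 * i)).symm.trans ((q ⟨h, hH⟩ _ _ (Commute.pow_left ah i).eq (by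
      rw [e, Commute.mul_pow az, (Commute.pow_pow az i i).eq, ← mul_assoc, ← pow_add, show j + 2 * i + i = j + 3 * i by ring,
        pow_add, pow_mul, z3, one_pow, mul_one])).trans r'.h)) 1 0
    simp only [upe, loe, mul_eq_right₀ r'.l0, ← orderOf_dvd_iff_pow_eq_one, o] at v1 v2
    obtain ⟨j, rfl⟩ : 3 ∣ j := by omega
    obtain ⟨i, rfl⟩ : 3 ∣ i := by omega
    exact x1 (e.trans (by simp [pow_mul, z3, a3]))
  classical
  have := Fintype.ofFinite H
  have := Fact.mk Nat.prime_three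
  let f : Function.End (Φ ⁻¹' {Φ k}) := fun x => ⟨σ x, by
    have := x.2
    simp only [Φ, Set.mem_preimage, Set.mem_singleton_iff, MonoidHom.prod_apply, MonoidHom.comp_apply, Prod.mk.injEq, s3, k1, k2]
      at this ⊢
    exact ⟨this.2.1, this.2.2, this.1⟩⟩
  have c := Equiv.Perm.card_fixedPoints_modEq (f := f) (p := 3) (n := 1) (funext fun x => Subtype.ext (s3 x))
  obtain ⟨⟨⟨x, hx⟩, fx⟩⟩ : Nonempty f.fixedPoints := by
    rw [← Fintype.card_pos_iff, Nat.pos_iff_ne_zero]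
    intro e
    rw [e, ← Nat.card_eq_fintype_card, Nat.card_congr (Φ.fiberEquivKer k)] at c
    exact p3 (Nat.modEq_zero_iff_dvd.1 c)
  have xa : (x : G) ∈ 𝐂₁ a := mem_cent1.2 (mul_inv_eq_iff_eq_mul.1 (congrArg (fun y : Φ ⁻¹' {Φ k} => (y.1 : G)) fx)).symm
  refine r'.three (Θ := Θ.subgroupOf H) (k := x) (fun d => (piNat_compl_single Nat.prime_three).1 pΘ (d.trans
    (card_comap_dvd_of_injective _ _ H.subtype_injective))) (by rwa [show ψ x = ψ k from congrArg Prod.fst hx]) gΘ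
    (mem_subgroupOf.2 (conj_mem_of_norm (nΘ (mem_cent1.2 az.symm)) gΘ)) (mem_subgroupOf.2 (conj_mem_of_norm (nΘ xa) gΘ))

end

end CF.Mas
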