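import Cfsg.Agent.Mas.B

/-! Elements of order three: invariant `2`-subgroups. -/

set_option autoImplicit false
set_option linter.unusedSectionVars false

namespace CF.Mas

open Subgroup CF.BG CF.Sig CF.SolvStr
open scoped commutatorElement

variable {G : Type*} [Group G] [Finite G] {A B D E F H K L P Q R U Y Z Θ : Subgroup G} {a b g h u x y z : G}

/-- the signalizer -/
abbrev th (x : G) : Subgroup G := 𝐎 {3}ᶜ (𝐂₁ x)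

theorem sig3 (h : PLay 3 H = ⊥) (hA : A ≤ H) (a : PiGrp {3} A) (hΩ : ∀ x ∈ H ⊓ 𝐂 A, x ^ 3 = 1 → x ∈ A) (hQ : Q ≤ H)
    (q : PiGrp {3}ᶜ Q) (n : A ≤ 𝐍 Q) : Q ≤ 𝐎 {3}ᶜ H := by
  rw [PLay_eq_bot_iff_charP Nat.prime_three] at h
  have hN := O_normal {3}ᶜ H
  rw [← qt_eq_bot (hQ.trans hN.norm)]
  refine Cfsg.Agent.S1302.aux Nat.prime_three (by decide) h (qt_mono _ hA) (a.qt _) (fun z hz e => ?_) (qt_mono _ hQ) (q.qt _)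
    (qt_norm _ n)
  rw [← qt_cent_pi hN (O_pi _ _) hA a] at hz
  obtain ⟨x, hx, nx, rfl⟩ := mem_qt.1 hz
  obtain ⟨u, v, hu, hv, pu, pv, rfl⟩ := exists_piPart {3} x
  have hu' := zpowers_le.2 hx hu
  have nu := hN.norm hu'.1
  have nv := hN.norm (zpowers_le.2 hx hv).1
  have v1 : qe (𝐎 {3}ᶜ H) v = 1 := ((piElt_of_pow_eq_one Nat.prime_three e).of_mem_zpowers
    (qt_zpowers nx ▸ qe_mem_qt hv nv)).eq_one (pv.qe nv)
  rw [qe_mul nu nv, v1, mul_one] at e ⊢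
  rw [← qe_pow nu, qe_eq_one (pow_mem nu _)] at e
  exact qe_mem_qt (hΩ u hu' ((pu.pow 3).eq_one ((O_pi _ _).elt e))) nu

theorem fixQ (k : PiGrp {3}ᶜ K) (l : PiGrp {3} L) (n : L ≤ 𝐍 K) (m : L ≤ 𝐍 A) (tr : TransOn K A 2) (q : MaxInv A 2 Q) :
    ∃ g, L ≤ 𝐍 (cj g Q) := by
  obtain ⟨k, -, e⟩ := exists_cj_le_of_le_sup (inf_le_left.trans (sup_le (le_norm_self K) n)) (tr.frattini q m) (l.coprime k)
    (.inl l.sol)
  exact ⟨k⁻¹, cj_norm _ Q ▸ cj_le_iff.1 (e.trans inf_le_right)⟩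

theorem c3 (u3 : u ^ 3 = 1) (hy : y ∈ zpowers u) (y1 : y ≠ 1) : 𝐂₁ y = 𝐂₁ u := by
  have u1 : u ≠ 1 := fun e => y1 (by simpa [e] using hy)
  rw [← cent_zpowers, zpowers_eq_of_prime (elem_zpowers' Nat.prime_three (mem_top u) u3 u1).card_prime hy y1, cent_zpowers]

theorem nat2 (c : a * z = z * a) (hy : y ∈ zpowers z ⊔ zpowers a) : ∃ i j : ℕ, y = z ^ j * a ^ i := by
  obtain ⟨_, hu, _, hv, rfl⟩ := (mem_sup_norm (norm_of_cent (zpowers_le.2 (cent_zpowers a ▸ mem_cent1.2 c.symm)))).1 hy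
  obtain ⟨j, rfl⟩ := mem_powers_iff_mem_zpowers.2 hu
  obtain ⟨i, rfl⟩ := mem_powers_iff_mem_zpowers.2 hv
  exact ⟨i, j, rfl⟩

theorem four (z3 : z ^ 3 = 1) (a3 : a ^ 3 = 1) (c : a * z = z * a) (hy : y ∈ zpowers z ⊔ zpowers a) :
    y ∈ zpowers z ∨ y ∈ zpowers a ∨ y ∈ zpowers (a * z) ∨ y ∈ zpowers (a * z ^ 2) := by
  obtain ⟨i, j, rfl⟩ := nat2 c hy
  have e : ∀ n, (a * z) ^ n = z ^ n * a ^ n := fun n => (Commute.mul_pow c n).trans (Commute.pow_pow c n n).eq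
  have e' : ∀ n, (a * z ^ 2) ^ n = z ^ (2 * n) * a ^ n := fun n => (Commute.mul_pow (Commute.pow_right c 2) n).trans
    (by rw [← pow_mul]; exact (Commute.pow_pow c n _).eq)
  rw [pow_eq_pow_mod j z3, pow_eq_pow_mod i a3]
  have := Nat.mod_lt i three_pos
  have := Nat.mod_lt j three_pos
  generalize i % 3 = i, j % 3 = j at *
  interval_cases i <;> interval_cases j
  exacts [.inl (by simp), .inl (by simp), .inl (by simp), .inr (.inl (by simp)), .inr (.inr (.inl (e 1 ▸ pow_mem (mem_zpowers _) 1))),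
    .inr (.inr (.inr (e' 1 ▸ pow_mem (mem_zpowers _) 1))), .inr (.inl (by simp)),
    .inr (.inr (.inr (by have := pow_mem (mem_zpowers (a * z ^ 2)) 2; rwa [e', pow_eq_pow_mod (2 * 2) z3] at this))),
    .inr (.inr (.inl (e 2 ▸ pow_mem (mem_zpowers _) 2)))]

theorem core' (pD : PiGrp {2} D) (cD : 𝐍 D ⊓ 𝐂 D ≤ D) {Y₁ Y₂ : Subgroup G} (l1 : D ≤ Y₁) (l2 : D ≤ Y₂) (hg : g ∈ Y₁)
    (hh : h ∈ Y₂) (gD : g ∈ 𝐍 D) (hD : h ∈ 𝐍 D) (g2 : g * g ∈ D) (h2 : h * h ∈ D) (z3 : z ^ 3 = 1) (a3 : a ^ 3 = 1)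
    (az : a * z = z * a) (ag : a * g = g * a) (ah : a * z * h = h * (a * z)) (zD : z ∈ 𝐍 D) (aD : a ∈ 𝐍 D) (n1 : z ∈ 𝐍 Y₁)
    (n2 : z ∈ 𝐍 Y₂) (f1 : Y₁ ⊓ 𝐂₁ z = ⊥) (f2 : Y₂ ⊓ 𝐂₁ z = ⊥) (pΘ : PiGrp {3}ᶜ Θ) (nΘ : 𝐂₁ a ≤ 𝐍 Θ) (gΘ : g ∈ Θ)
    (full : ∀ x, x ^ 3 = 1 → x * a = a * x → x * z = z * x → ∃ i j : ℕ, x = z ^ j * a ^ i) :
    ∃ J, PiGrp {2} J ∧ D ≤ J ∧ g ∈ J ∧ h ∈ J ∧ z ∈ 𝐍 J := by
  have := (normalIn_norm D).normal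
  have t : ∀ {Y : Subgroup G} {x : 𝐍 D}, (x : G) ∈ 𝐍 Y → x ∈ 𝐍 (Y.subgroupOf (𝐍 D)) := fun n =>
    mem_norm_of_cj_le fun y hy => by
      obtain ⟨w, hw, rfl⟩ := mem_cj_iff.1 hy
      exact mem_subgroupOf.2 (conj_mem_of_norm n hw)
  have s : ∀ {Y : Subgroup G}, Y ⊓ 𝐂₁ z = ⊥ → Y.subgroupOf (𝐍 D) ⊓ 𝐂₁ (⟨z, zD⟩ : 𝐍 D) = ⊥ := fun f => eq_bot_of_forall
    fun y hy => Subtype.ext (eq_one_of_mem_bot f ⟨hy.1, mem_cent1.2 (congrArg Subtype.val (mem_cent1.1 hy.2))⟩)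
  have p : ∀ {π} {Y : Subgroup G}, PiGrp π Y → PiGrp π (Y.subgroupOf (𝐍 D)) := fun k =>
    k.dvd (card_comap_dvd_of_injective _ _ (𝐍 D).subtype_injective)
  obtain ⟨J, a1, a2, a3, a4, a5⟩ := core (G := 𝐍 D) (D := D.subgroupOf _) (g := ⟨g, gD⟩) (h := ⟨h, hD⟩) (z := ⟨z, zD⟩)
    (a := ⟨a, aD⟩) (Θ := Θ.subgroupOf _) (p pD) (fun y hy => cD ⟨y.2, mem_cent.2 fun d hd => congrArg Subtype.val
      (mem_cent.1 hy ⟨d, le_norm_self D hd⟩ hd)⟩) (comap_mono l1) (comap_mono l2) hg hh g2 h2 (Subtype.ext z3) (Subtype.ext a3)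
    (Subtype.ext az) (Subtype.ext ag) (Subtype.ext ah) (t n1) (t n2) (s f1) (s f2) (p pΘ)
    (fun y hy => t (nΘ (mem_cent1.2 (congrArg Subtype.val (mem_cent1.1 hy))))) gΘ fun x a b c =>
      (full x (congrArg Subtype.val a) (congrArg Subtype.val b) (congrArg Subtype.val c)).imp fun _ => .imp fun _ => Subtype.ext
  exact ⟨J.map (𝐍 D).subtype, a1.map _, fun d hd => ⟨⟨d, le_norm_self D hd⟩, a2 hd, rfl⟩, ⟨_, a3, rfl⟩, ⟨_, a4, rfl⟩,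
    map_norm (zpowers_le.2 a5) _ ⟨_, mem_zpowers _, rfl⟩⟩

theorem sqD (e : PiElt {2} g) (n : g ∉ D) : ∃ k ∈ zpowers g, k ∉ D ∧ k * k ∈ D := by
  obtain ⟨m, o⟩ := e.exists_pow (orderOf_pos g).ne'
  have : ∃ m, g ^ 2 ^ m ∈ D := ⟨m, by rw [← o, pow_orderOf_eq_one]; exact one_mem _⟩
  classical
  obtain ⟨k, e⟩ := Nat.exists_eq_succ_of_ne_zero (n := Nat.find this) fun e => n (by simpa [e] using Nat.find_spec this)
  exact ⟨_, pow_mem (mem_zpowers g) (2 ^ k), Nat.find_min this (by omega), by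
    rw [← pow_two, ← pow_mul, ← pow_succ, ← Nat.succ_eq_add_one, ← e]; exact Nat.find_spec this⟩

theorem a4 (r : PiGrp {3} R) (y2 : y * y = 1) (z3 : z ^ 3 = 1) (ny : y ∈ 𝐍 R) (nz : z ∈ 𝐍 R)
    (c : y * (z⁻¹ * y * z) * (z⁻¹ * (z⁻¹ * y * z) * z) = 1) (i : logn 3 (♯R) ≤ logn 3 (♯(R ⊓ 𝐂₁ z)) + 1) : y ∈ 𝐂 R := by
  by_contra k
  have cz : ∀ x, cj z⁻¹ (R ⊓ 𝐂₁ x) = R ⊓ 𝐂₁ (z⁻¹ * x * z) := fun x => by rw [cj_inf, cj_of_norm (inv_mem nz), cj_cent1, inv_inv]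
  have sq : ∀ {x}, x * x = 1 → z⁻¹ * x * z * (z⁻¹ * x * z) = 1 := fun {x} e => by simp [mul_assoc, ← mul_assoc x, e]
  have v2 := sq y2
  have w2 := sq v2
  have c1 := cz y
  have c2 := cz (z⁻¹ * y * z)
  have c3 := cz (z⁻¹ * (z⁻¹ * y * z) * z)
  have e3 : z⁻¹ * (z⁻¹ * (z⁻¹ * y * z) * z) * z = y := by
    calc _ = (z ^ 3)⁻¹ * y * z ^ 3 := by simp [pow_succ, mul_assoc]
      _ = _ := by simp [z3]
  have nv : z⁻¹ * y * z ∈ 𝐍 R := mul_mem (mul_mem (inv_mem nz) ny) nz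
  generalize hv : z⁻¹ * y * z = v at *
  have nw : z⁻¹ * v * z ∈ 𝐍 R := mul_mem (mul_mem (inv_mem nz) nv) nz
  generalize hw : z⁻¹ * v * z = w at *
  rw [e3] at c3
  have vw : v * w = y := by rw [← mul_right_inj y, ← mul_assoc, c, y2]
  have wv : w * v = y := by
    rw [← inv_eq_of_mul_eq_one_left y2, ← vw, mul_inv_rev, inv_eq_of_mul_eq_one_left v2, inv_eq_of_mul_eq_one_left w2]
  have y1 : y ≠ 1 := fun e => k (e ▸ one_mem _)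
  have v1 : v ≠ 1 := by rw [← hv]; simpa [mul_assoc, inv_mul_eq_one] using y1
  have w1 : w ≠ 1 := by rw [← hw]; simpa [mul_assoc, inv_mul_eq_one] using v1
  have ov := orderOf_eq_of_pow Nat.prime_two (by rwa [pow_two]) v1
  have ow := orderOf_eq_of_pow Nat.prime_two (by rwa [pow_two]) w1
  have cw : zpowers w ≤ 𝐂 (zpowers v) := zpowers_le.2 (cent_zpowers v ▸ mem_cent1.2 (wv.trans vw.symm))
  have el := (elem_zpowers Nat.prime_two (mem_top v) ov).sup_one (elem_zpowers Nat.prime_two (mem_top w) ow) cw fun l =>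
    y1 (by rw [← vw, eq_of_mem_zpowers_two ov (l (mem_zpowers w)) w1, v2])
  have nA : zpowers v ⊔ zpowers w ≤ 𝐍 R := sup_le (zpowers_le.2 nv) (zpowers_le.2 nw)
  have yA : y ∈ zpowers v ⊔ zpowers w := vw ▸ mul_mem_sup (mem_zpowers v) (mem_zpowers w)
  have g : R ⊓ 𝐂₁ v ≤ R ⊓ 𝐂₁ y → ¬ R ⊓ 𝐂₁ w ≤ R ⊓ 𝐂₁ y := fun a b => k (le_cent1_iff.1 (le_trans (el.abel.le_of_cent1
    el.not_cyc nA (el.pi.coprime (r.of_single_ne (by decide))) fun x hx x1 => by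
      obtain ⟨s, hs, t, ht, rfl⟩ := (mem_sup_norm' (norm_of_cent cw)).1 hx
      by_cases s1 : s = 1
      · rwa [s1, one_mul, eq_of_mem_zpowers_two ow ht (by simpa [s1] using x1)]
      rw [eq_of_mem_zpowers_two ov hs s1]
      by_cases t1 : t = 1
      · rwa [t1, mul_one]
      · rw [eq_of_mem_zpowers_two ow ht t1, vw]) inf_le_right))
  have d1 : ♯(R ⊓ 𝐂₁ v) = ♯(R ⊓ 𝐂₁ y) := c1 ▸ card_cj _ _
  have d2 : ♯(R ⊓ 𝐂₁ w) = ♯(R ⊓ 𝐂₁ y) := d1 ▸ c2 ▸ card_cj _ _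
  have a : ¬ R ⊓ 𝐂₁ v ≤ R ⊓ 𝐂₁ y := fun a => g a (by rw [← c2, eq_of_card_eq a d1, c1]; exact a)
  have b : ¬ R ⊓ 𝐂₁ w ≤ R ⊓ 𝐂₁ y := fun b => g (by rw [← c1, ← eq_of_card_eq b d2, c3, eq_of_card_eq b d2]) b
  have l0 : cj y (R ⊓ 𝐂₁ z) ≤ R := cj_le_of_norm ny inf_le_left
  have m := congrArg (logn 3) (card_sup_mul_card_inf (.inr (l0.trans (r.norm_of_logn inf_le_left i))))
  rw [logn_mul (card_ne_zero' _) (card_ne_zero' _), logn_mul (card_ne_zero' _) (card_ne_zero' _), card_cj] at m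
  have m1 := logn_card_le (p := 3) (sup_le inf_le_left l0 : R ⊓ 𝐂₁ z ⊔ _ ≤ R)
  have m2 := (r.inf_left (K := 𝐂₁ v)).logn_lt (H := R ⊓ 𝐂₁ z ⊓ cj y (R ⊓ 𝐂₁ z)) (lt_of_le_of_lt (fun n hn => by
    have p := mem_cent1_comm.1 hn.1.2
    have q : y * z * y⁻¹ ∈ 𝐂₁ n := mem_cent1_comm.1 (cj_cent1 y z ▸ cj_mono y inf_le_right hn.2)
    have s : v ∈ 𝐂₁ n := by
      convert mul_mem q (inv_mem p) using 1
      rw [inv_eq_of_mul_eq_one_left y2, ← mul_left_inj w, vw, ← e3]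
      simp [mul_assoc, w2]
    exact ⟨⟨hn.1.1, mem_cent1_comm.1 s⟩, hn.1.1, mem_cent1_comm.1 (vw ▸ mul_mem s (hw ▸ mul_mem (mul_mem (inv_mem p) s) p))⟩)
    (inf_lt_left.2 a))
  rw [d1] at m2
  have nR := r.norm_of_logn (inf_le_left : R ⊓ 𝐂₁ y ≤ R) (by omega)
  have nC : zpowers v ⊔ zpowers w ≤ 𝐍 (R ⊓ 𝐂₁ y) := norm_inf nA (norm_of_le (le_cent1_iff.2 (el.abel yA)))
  have key : ∀ {x}, zpowers x ≤ 𝐍 (R ⊓ 𝐂₁ y) → ¬ R ⊓ 𝐂₁ x ≤ R ⊓ 𝐂₁ y → ⁅R, zpowers x⁆ ≤ R ⊓ 𝐂₁ y := fun {x} n a => by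
    have l : R ⊓ 𝐂₁ y ⊔ R ⊓ 𝐂₁ x ≤ R := sup_le inf_le_left inf_le_left
    have := (r.le l).logn_lt (left_lt_sup.2 a)
    exact (commutator_mono (r.eq_of_logn_le l (by omega)).ge le_rfl).trans (comm_sup_le (comm_le_left n)
      ((comm_eq_bot.2 (cent_zpowers x ▸ inf_le_right)).trans_le bot_le) (le_norm_self _) (inf_le_left.trans nR))
  exact k (cent_of_stable (N := R ⊓ 𝐂₁ y) ((el.pi.elt yA).zpowers.coprime (r.inf_left.of_single_ne (by decide)))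
    ((commutator_mono le_rfl (zpowers_le.2 yA)).trans (comm_sup_le' (key (le_sup_left.trans nC) a) (key (le_sup_right.trans nC) b)
      (le_sup_left.trans nC) (le_sup_right.trans nC))) (zpowers_le.2 (le_cent1_iff.1 inf_le_right)) (mem_zpowers y))

end CF.Mas
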