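import Cfsg.Agent.Mas.C

/-! Elements of order three have `3'`-cores of odd order. -/

set_option autoImplicit false
set_option linter.unusedSectionVars false

namespace CF.Mas

open Subgroup CF.BG CF.Sig CF.SolvStr
open scoped commutatorElement

variable {G : Type*} [Group G] [Finite G] {A B D E F H K L P Q R U X Y Z : Subgroup G} {a b g h u x y z : G}

/-- the hypotheses -/
structure Hc (P B : Subgroup G) : Prop where
  loc : ∀ u : G, u ≠ 1 → PiElt {3} u → PLay 3 (𝐍 (zpowers u)) = ⊥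
  lc : ∀ T : Subgroup G, PiGrp {2} T → T ≠ ⊥ → CharP 2 (𝐍 T)
  syl : Syl 3 P ⊤
  scn : SCN B P
  rk : 2 < pRank 3 B
  inv : ∀ X, PiGrp {2} X → P ≤ 𝐍 X → X = ⊥

theorem e3 (h : x ^ 3 = 1) : PiElt {3} x := piElt_of_pow_eq_one Nat.prime_three h

theorem odd_of (a : PiGrp {3} A) (k : PiGrp {3}ᶜ K) (n : A ≤ 𝐍 K) (h : ∀ X, X ≤ K → PiGrp {2} X → A ≤ 𝐍 X → X = ⊥) :
    PiGrp {2}ᶜ K := by
  obtain ⟨S, s, m⟩ := exists_syl_inv n (a.coprime k) (.inl a.sol) 2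
  exact (h S s.le s.pi m ▸ s).pi'_of_eq_bot

theorem gcj (k : PiGrp {2}ᶜ (th x)) (g : G) : PiGrp {2}ᶜ (th (g * x * g⁻¹)) := by
  rw [th, ← cj_cent1, ← cj_O]; exact k.cj g

namespace Hc
variable (c : Hc P B)
include c

theorem lay (x1 : x ≠ 1) (e : PiElt {3} x) : PLay 3 (𝐂₁ x) = ⊥ := by
  have := (constrained_cent Nat.prime_three (c.loc x x1 e) (le_norm_self _) e.zpowers).1
  rwa [inf_eq_right.2 (cent_le_norm _), cent_zpowers] at this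

theorem bal (e : PiElt {3} x) (y1 : y ≠ 1) (f : PiElt {3} y) (k : x ∈ 𝐂₁ y) : th x ⊓ 𝐂₁ y ≤ th y := by
  refine le_trans ?_ (constrained_cent Nat.prime_three (c.lay y1 f) (zpowers_le.2 k) e.zpowers).2
  rw [cent_zpowers]
  exact le_trans (le_inf (le_inf inf_le_right (inf_le_left.trans (O_le _ _))) inf_le_left)
    (le_O ((O_normal _ _).inf_left inf_le_right) (O_pi _ _).inf_right)

theorem nb (p : PiGrp {2} X) (n : B ≤ 𝐍 X) : X = ⊥ := by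
  obtain ⟨Q, q, l⟩ := exists_maxInv p n
  obtain ⟨g, m⟩ := fixQ (O_pi _ _) c.syl.pi (le_norm_O _ (norm_cent c.scn.normal.norm)) c.scn.normal.norm
    (transitivity Nat.prime_three c.loc (fun e => absurd e (by decide)) (c.syl.pi.le c.scn.le) c.scn.abel c.rk (fun x hx =>
      (c.scn.syl_cent c.syl).mem_normal (inf_le_right.trans (cent_le_norm B)) ⟨trivial, hx⟩) (by decide)) q
  exact eq_bot_mono (cj_eq_bot.1 (c.inv _ (q.pi.cj g) m)) l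

theorem gB (hb : b ∈ B) : PiGrp {2}ᶜ (th b) := odd_of (c.syl.pi.le c.scn.le) (O_pi _ _)
  ((le_cent1_iff.2 (c.scn.abel hb)).trans (O_normal _ _).norm) fun _ _ => c.nb

theorem gE (f : Elem 3 2 E H) (k : ∀ e ∈ E, PiGrp {2}ᶜ (th e)) (hx : x ∈ 𝐂 E) (e : PiElt {3} x) : PiGrp {2}ᶜ (th x) :=
  odd_of f.pi (O_pi _ _) ((le_cent1_iff.2 hx).trans (O_normal _ _).norm) fun X l p n => le_bot_iff.1 (f.abel.le_of_cent1
    f.not_cyc n (f.pi.coprime (p.of_single_ne (by decide))) fun y hy y1 => (p.inf_left.eq_bot ((k y hy).le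
      ((inf_le_inf_right _ l).trans (c.bal e y1 (f.pi.elt hy) (cent_le_cent1 hy hx))))).le)

theorem exU : ∃ U, Elem 3 2 U B ∧ P ≤ 𝐍 U := c.syl.pi.exists_normal_elem_two (c.syl.pi.odd (by decide)) c.scn.normal
  fun k => by have := k.pRank_le 3; have := c.rk; omega

theorem g27 (f : Elem 3 3 E H) (hx : x ∈ 𝐂 E) (e : PiElt {3} x) : PiGrp {2}ᶜ (th x) := by
  obtain ⟨U, u, n⟩ := c.exU
  obtain ⟨g, -, l⟩ := c.syl.syl_cj_le le_top f.pi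
  have i := u.logn_relIndex_cent (l.trans n)
  have j := congrArg (logn 3) (card_inf_mul_relIndex (𝐂 U) (cj g E))
  rw [logn_mul (card_ne_zero' _) (relIndex_ne_zero' _ _), (f.cj g).log] at j
  obtain ⟨V, v⟩ := ((f.ab.cj g).le (inf_le_right : 𝐂 U ⊓ _ ≤ _)).exists_elem (n := 2) (by omega)
  simpa [mul_assoc] using gcj (c.gE v (fun y hy => c.gE u (fun _ k => c.gB (u.le k)) (v.le hy).1 (v.pi.elt hy))
    (cent_anti (v.le.trans inf_le_right) (cj_cent g E ▸ conj_mem_cj.2 hx)) (e.conj g)) g⁻¹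

theorem sg (f : Abelem 3 F) (full : ∀ y ∈ 𝐂 F, y ^ 3 = 1 → y ∈ F) (ha : a ∈ F) (a1 : a ≠ 1) (l : Y ≤ 𝐂₁ a)
    (p : PiGrp {3}ᶜ Y) (n : F ≤ 𝐍 Y) : Y ≤ th a :=
  sig3 (c.lay a1 (f.pi.elt ha)) (le_cent1_iff.2 (f.abel ha)) f.pi (fun x hx => full x hx.2) l p n

theorem cz (f : Abelem 3 F) (full : ∀ y ∈ 𝐂 F, y ^ 3 = 1 → y ∈ F) (ha : a ∈ F) (a1 : a ≠ 1) (k : PiGrp {2}ᶜ (th a))
    (p : PiGrp {2} Y) (n : F ≤ 𝐍 Y) : Y ⊓ 𝐂₁ a = ⊥ := p.inf_left.eq_bot (k.le (c.sg f full ha a1 inf_le_right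
      (p.inf_left.of_single_ne (by decide)) (norm_inf n (norm_of_le (le_cent1_iff.2 (f.abel ha))))))

theorem tr (f : Elem 3 2 F H) (z : Elem 3 1 Z F) (full : ∀ y ∈ 𝐂 F, y ^ 3 = 1 → y ∈ F) (gz : ∀ z ∈ Z, PiGrp {2}ᶜ (th z)) :
    TransOn (𝐎 {3}ᶜ (𝐂 F)) F 2 := by
  have nC : ∀ {a}, a ∈ F → F ≤ 𝐍 (𝐂₁ a) := fun ha => norm_of_le (le_cent1_iff.2 (f.abel ha))
  have kF : ∀ Y, Y ≤ 𝐂 F → PiGrp {3}ᶜ Y → Y ≤ 𝐎 {3}ᶜ (𝐂 F) := fun Y l p => by
    obtain ⟨a, ha, a1⟩ := exists_mem_ne_one f.ne_bot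
    have := (constrained_cent Nat.prime_three (c.lay a1 (f.pi.elt ha)) (le_cent1_iff.2 (f.abel ha)) f.pi).1
    rw [inf_eq_right.2 (cent_le_cent1 ha)] at this
    exact sig3 this f.abel f.pi (fun x hx => full x hx.2) l p (norm_of_cent' l)
  have co : ∀ {Y : Subgroup G}, PiGrp {2} Y → (♯F).Coprime (♯Y) := fun p => f.pi.coprime (p.of_single_ne (by decide))
  have cz : ∀ z ∈ Z, z ≠ 1 → ∀ {Y : Subgroup G}, PiGrp {2} Y → F ≤ 𝐍 Y → Y ⊓ 𝐂₁ z = ⊥ := fun y hy y1 _ =>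
    c.cz f.ab full (z.le hy) y1 (gz y hy)
  have gen : ∀ {Y L : Subgroup G}, PiGrp {2} Y → F ≤ 𝐍 Y → ¬ Y ≤ L → ∃ a ∈ F, a ∉ Z ∧ ¬ Y ⊓ 𝐂₁ a ≤ L := fun p n l => by
    by_contra! k
    exact l (f.abel.le_of_cent1 f.not_cyc n (co p) fun a ha a1 => (em (a ∈ Z)).elim
      (fun e => (cz a e a1 p n).trans_le bot_le) (k a ha))
  have dec : ∀ a ∈ F, a ∉ Z → ∀ b ∈ F, b ∉ Z → 𝐂₁ b = 𝐂₁ a ∨ ∃ z ∈ Z, z ≠ 1 ∧ ∃ c ∈ F, c ∉ Z ∧ 𝐂₁ c = 𝐂₁ a ∧ b = c * z ∧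
      zpowers z ⊔ zpowers c = F := fun a ha aZ b hb bZ => by
    have A := f.ab.elem_zpowers ha fun e => aZ (e ▸ one_mem _)
    have e := (z.sup_one A (f.abel.cent A.le z.le) (mt zpowers_le.1 aZ)).eq_of_le f (sup_le z.le A.le)
    obtain ⟨y, hy, u, hu, rfl⟩ := (mem_sup_norm (f.abel.cent z.le A.le |> norm_of_cent)).1 (e.ge hb)
    have u1 : u ≠ 1 := fun k => bZ (by simpa [k] using hy)
    have := c3 (f.ab.pow a ha) hu u1
    by_cases y1 : y = 1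
    · exact .inl (by rw [y1, one_mul, this])
    · exact .inr ⟨y, hy, y1, u, A.le hu, fun k => bZ (mul_mem hy k), this, f.abel.mul_comm (z.le hy) (A.le hu), by
        rw [zpowers_eq_of_prime z.card_prime hy y1, zpowers_eq_of_prime A.card_prime hu u1, e]⟩
  have nc : ∀ {Q a}, MaxInv F 2 Q → Q ≠ ⊥ → a ∈ F → a ∉ Z → ¬ Q ≤ 𝐂₁ a := fun {Q a} q Q1 ha aZ l => by
    have e := q.max _ (O_pi {2} (𝐍 Q)) (q.norm.trans (O_normal _ _).norm) (le_O (normalIn_norm Q) q.pi)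
    exact aZ (((O_pi _ _).elt (c.lc Q q.pi Q1 ⟨q.norm ha, e.symm ▸ le_cent1_iff.1 l⟩)).eq_one
      ((f.pi.of_single_ne (by decide)).elt ha) ▸ one_mem _)
  suffices ∀ n Q₁ Q₂, ♯(⊤ : Subgroup G) < ♯(Q₁ ⊓ Q₂) + n → MaxInv F 2 Q₁ → MaxInv F 2 Q₂ → ∃ k ∈ 𝐎 {3}ᶜ (𝐂 F), Q₂ = cj k Q₁ from
    fun _ _ => this _ _ _ (Nat.lt_add_left _ (Nat.lt_succ_self _))
  intro n
  induction n with
  | zero => exact fun Q₁ Q₂ l => absurd (card_le (le_top : Q₁ ⊓ Q₂ ≤ ⊤)) (by omega)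
  | succ n ih =>
  intro Q₁ Q₂ l q1 q2
  by_cases e : Q₁ = Q₂
  · exact ⟨1, one_mem _, by rw [cj_one, e]⟩
  have nD : F ≤ 𝐍 (Q₁ ⊓ Q₂) := norm_inf q1.norm q2.norm
  have a1 := q1.pi.nil.lt_inf_norm (q1.lt_of_ne q2 e)
  have a2 := q2.pi.nil.lt_inf_norm (inf_comm Q₂ Q₁ ▸ q2.lt_of_ne q1 (Ne.symm e))
  generalize Q₁ ⊓ Q₂ = D at *
  have nN := nD.trans (norm_le_norm_norm D)
  have n1 := norm_inf q1.norm nN
  have n2 := norm_inf q2.norm nN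
  have p1 : PiGrp {2} (Q₁ ⊓ 𝐍 D) := q1.pi.inf_left
  have p2 : PiGrp {2} (Q₂ ⊓ 𝐍 D) := q2.pi.inf_left
  have pD := p1.le a1.le
  have fuse : ∀ {Q Q' X Y Y'}, MaxInv F 2 Q → MaxInv F 2 Q' → PiGrp {3}ᶜ X → F ≤ 𝐍 X → Y ≤ Q → Y' ≤ Q' → Y ≤ X → Y' ≤ X →
      F ≤ 𝐍 Y → F ≤ 𝐍 Y' → D < Y → D < Y' → ∃ k ∈ 𝐎 {3}ᶜ (𝐂 F), Q' = cj k Q :=
    fun q q' pX nX l l' m m' o o' d d' => by
    have co := f.pi.coprime pX
    obtain ⟨R, s, r, t⟩ := exists_syl_inv_le nX co (.inl f.pi.sol) m (q.pi.le l) o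
    obtain ⟨R', s', r', t'⟩ := exists_syl_inv_le nX co (.inl f.pi.sol) m' (q'.pi.le l') o'
    obtain ⟨k, hk, rfl⟩ := s.syl_conj_inv s' nX co (.inl f.pi.sol) r r'
    obtain ⟨Q₃, q3, l3⟩ := exists_maxInv s'.pi r'
    have b1 := card_le (le_inf (cj_mono k l) ((cj_mono k t).trans l3))
    have b2 := card_le (le_inf (t'.trans l3) l')
    rw [card_cj] at b1
    have d1 := card_lt d
    have d2 := card_lt d'
    obtain ⟨k1, hk1, e1⟩ := ih _ Q₃ (by omega) (q.cj_of_norm (cent_le_norm F hk.2)) q3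
    obtain ⟨k2, hk2, e2⟩ := ih Q₃ _ (by omega) q3 q'
    exact ⟨k2 * (k1 * k), mul_mem hk2 (mul_mem hk1 (kF _ inf_le_right pX.inf_left hk)), by rw [e2, e1, cj_cj, cj_cj, mul_assoc]⟩
  by_contra no
  have com : ∀ a ∈ F, a ∉ Z → ¬ Q₁ ⊓ 𝐍 D ⊓ 𝐂₁ a ≤ D → Q₂ ⊓ 𝐍 D ⊓ 𝐂₁ a ≤ D := fun a ha aZ b1 => by_contra fun b2 => by
    have t : ∀ {Q}, MaxInv F 2 Q → D ⊔ Q ⊓ 𝐍 D ⊓ 𝐂₁ a ≤ D ⊔ th a ⊓ 𝐍 D := fun q => sup_le_sup_left (le_inf
      (c.sg f.ab full ha (fun e => aZ (e ▸ one_mem _)) inf_le_right (q.pi.inf_left.inf_left.of_single_ne (by decide))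
        (norm_inf (norm_inf q.norm nN) (nC ha))) (inf_le_left.trans inf_le_right)) D
    exact no (fuse q1 q2 ((pD.of_single_ne (by decide)).sup (O_pi _ _).inf_left (.inr inf_le_right))
      (norm_sup nD (norm_inf ((le_cent1_iff.2 (f.abel ha)).trans (O_normal _ _).norm) nN))
      (sup_le (a1.le.trans inf_le_left) (inf_le_left.trans inf_le_left))
      (sup_le (a2.le.trans inf_le_left) (inf_le_left.trans inf_le_left)) (t q1) (t q2) (norm_sup nD (norm_inf n1 (nC ha)))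
      (norm_sup nD (norm_inf n2 (nC ha))) (left_lt_sup.2 b1) (left_lt_sup.2 b2))
  obtain ⟨a, ha, aZ, b1⟩ := gen p1 n1 a1.not_ge
  by_cases D1 : D = ⊥
  · subst D1
    simp only [norm_bot, inf_top_eq] at *
    obtain ⟨b, hb, bZ, b2⟩ := gen p1 n1 (nc q1 a1.ne' ha aZ)
    obtain k | ⟨y, hy, y1, u, hu, uZ, k, rfl, rfl⟩ := dec a ha aZ b hb bZ
    · exact b2 (k ▸ inf_le_right)
    have y3 := f.ab.pow y (z.le hy)
    have m := mul_mem hu (pow_mem (z.le hy) 2)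
    refine nc q2 a2.ne' m (fun k => uZ ((mul_mem_cancel_right (pow_mem hy 2)).1 k)) (f.abel.le_of_cent1 f.not_cyc n2 (co p2)
      fun x hx x1 => ?_)
    obtain t | t | t | t := four y3 (f.ab.pow u hu) (f.abel.mul_comm hu (z.le hy)) hx
    · exact (cz x (zpowers_le.2 hy t) x1 p2 n2).trans_le bot_le
    · exact c3 (f.ab.pow u hu) t x1 ▸ (com u hu uZ (k ▸ b1)).trans bot_le
    · exact c3 (f.ab.pow _ hb) t x1 ▸ (com _ hb bZ fun k => b2 (k.trans bot_le)).trans bot_le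
    · exact c3 (f.ab.pow _ m) t x1 ▸ inf_le_right
  have lO : D ≤ 𝐎 {2} (𝐍 D) := le_O (normalIn_norm D) pD
  have nO := nD.trans (O_normal {2} (𝐍 D)).norm
  obtain eO | lO := lO.eq_or_lt
  swap
  · obtain ⟨Q₃, q3, l3⟩ := exists_maxInv (O_pi _ _) nO
    have t : ∀ {Q : Subgroup G}, PiGrp {2} Q → PiGrp {3}ᶜ (Q ⊓ 𝐍 D ⊔ 𝐎 {2} (𝐍 D)) := fun p =>
      (p.inf_left.sup (O_pi _ _) (.inl (inf_le_right.trans (O_normal _ _).norm))).of_single_ne (by decide)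
    obtain ⟨k, hk, rfl⟩ := fuse q1 q3 (t q1.pi) (norm_sup n1 nO) inf_le_left l3 le_sup_left le_sup_right n1 nO a1 lO
    obtain ⟨k', hk', e⟩ := fuse q3 q2 (t q2.pi) (norm_sup n2 nO) l3 inf_le_left le_sup_right le_sup_left nO n2 lO a2
    exact no ⟨_, mul_mem hk' hk, e.trans (cj_cj _ _ _)⟩
  obtain ⟨b, hb, bZ, b2⟩ := gen p2 n2 a2.not_ge
  obtain k | ⟨y, hy, y1, u, hu, uZ, k, rfl, rfl⟩ := dec a ha aZ b hb bZ
  · exact b2 (k ▸ com a ha aZ b1)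
  rw [← k] at b1
  obtain ⟨g, hg, gD⟩ := SetLike.not_le_iff_exists.1 b1
  obtain ⟨g, k1, gD, g2⟩ := sqD (p1.elt hg.1) gD
  replace hg := zpowers_le.2 hg k1
  obtain ⟨h, hh, hD⟩ := SetLike.not_le_iff_exists.1 b2
  obtain ⟨h, k2, hD, h2⟩ := sqD (p2.elt hh.1) hD
  replace hh := zpowers_le.2 hh k2
  have y3 := f.ab.pow y (z.le hy)
  have uy := f.abel.mul_comm hu (z.le hy)
  have ug := (mem_cent1.1 hg.2).symm
  have uh := (mem_cent1.1 hh.2).symm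
  obtain ⟨J, j1, j2, j3, j4, j5⟩ := core' pD (by have := c.lc D pD D1; rwa [Sig.CharP, ← eO] at this) a1.le a2.le hg.1 hh.1 hg.1.2
    hh.1.2 g2 h2 y3 (f.ab.pow u hu) uy ug uh (nD (z.le hy)) (nD hu) (n1 (z.le hy)) (n2 (z.le hy))
    (cz y hy y1 p1 n1) (cz y hy y1 p2 n2) (O_pi _ _) (O_normal _ _).norm (c.sg f.ab full hu (fun e => uZ (e ▸ one_mem _))
      inf_le_right (p1.inf_left.of_single_ne (by decide)) (norm_inf n1 (nC hu)) hg) fun x x3 a b => nat2 uy (full x (by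
        rw [cent_sup, cent_zpowers, cent_zpowers]; exact ⟨mem_cent1.2 b, mem_cent1.2 a⟩) x3)
  have t : ∀ {x w g} (n : ℕ), g ∈ J → w * g = g * w → x = y ^ n * w → cj x (zpowers g) ≤ J := fun {x w g} n hg c e => by
    rw [cj_zpowers, zpowers_le, e, mul_assoc _ _ g, c, mul_inv_rev, mul_assoc, mul_assoc, mul_inv_cancel_left, ← mul_assoc]
    exact conj_mem_of_norm (pow_mem j5 n) hg
  have W : orbJ _ (D ⊔ zpowers g ⊔ zpowers h) ≤ J := orbJ_le_iff.2 fun x hx => by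
    obtain ⟨i, j, e⟩ := nat2 uy hx
    rw [cj_sup, cj_sup, cj_of_norm (nD hx)]
    exact sup_le (sup_le j2 (t j j3 (Commute.pow_left ug i).eq e)) (t (j + 2 * i) j4 (Commute.pow_left uh i).eq (by
      rw [e, Commute.mul_pow uy, (Commute.pow_pow uy i i).eq, ← mul_assoc, ← pow_add, show j + 2 * i + i = j + 3 * i by ring,
        pow_add, pow_mul, y3, one_pow, mul_one]))
  have W1 := le_orbJ (zpowers y ⊔ zpowers u) (D ⊔ zpowers g ⊔ zpowers h)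
  have W2 := le_sup_left.trans (le_sup_left.trans W1)
  exact no (fuse q1 q2 ((j1.le W).of_single_ne (by decide)) (norm_orbJ _ _) inf_le_left inf_le_left inf_le_right inf_le_right
    (norm_inf q1.norm (norm_orbJ _ _)) (norm_inf q2.norm (norm_orbJ _ _))
    (lt_of_le_not_ge (le_inf (a1.le.trans inf_le_left) W2) fun k => gD (k ⟨hg.1.1, W1 (mem_sup_left (mem_sup_right (mem_zpowers g)))⟩))
    (lt_of_le_not_ge (le_inf (a2.le.trans inf_le_left) W2) fun k => hD (k ⟨hh.1.1, W1 (mem_sup_right (mem_zpowers h))⟩)))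

theorem good (x3 : x ^ 3 = 1) : PiGrp {2}ᶜ (th x) := by
  obtain ⟨U, u, n⟩ := c.exU
  have UP := u.le.trans c.scn.le
  wlog hx : x ∈ P generalizing x
  · obtain ⟨g, -, l⟩ := c.syl.syl_cj_le le_top (e3 x3).zpowers
    simpa [mul_assoc] using gcj (this (x := g * x * g⁻¹) (by rw [conj_pow, x3]; simp) (l (conj_mem_cj.2 (mem_zpowers x)))) g⁻¹
  by_contra bad
  obtain ⟨Z, z⟩ := c.syl.pi.exists_elem_center ⟨UP, n⟩ u.ne_bot
  have ZU := z.le.trans inf_le_left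
  have cZ : P ≤ 𝐂 Z := cent_symm (z.le.trans (inf_le_right.trans inf_le_right))
  have gz : ∀ z ∈ Z, PiGrp {2}ᶜ (th z) := fun _ k => c.gB (u.le (ZU k))
  have xZ : x ∉ Z := fun k => bad (gz x k)
  have X := elem_zpowers' Nat.prime_three hx x3 fun e => xZ (e ▸ one_mem _)
  have f := (z.of_le (ZU.trans UP)).sup_one X (X.le.trans cZ) (mt zpowers_le.1 xZ)
  have xF : x ∈ Z ⊔ zpowers x := mem_sup_right (mem_zpowers x)
  have zF := z.of_le (le_sup_left : Z ≤ Z ⊔ zpowers x)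
  generalize Z ⊔ zpowers x = F at *
  have full : ∀ y ∈ 𝐂 F, y ^ 3 = 1 → y ∈ F := fun y hy y3 => by_contra fun k => by
    have e := f.top.sup_one (elem_zpowers' Nat.prime_three (mem_top y) y3 fun e => k (e ▸ one_mem _)) (zpowers_le.2 hy)
      (mt zpowers_le.1 k)
    exact bad (c.g27 e (e.abel (mem_sup_left xF)) (e3 x3))
  have nZ := norm_of_cent cZ
  have UF : U ≤ 𝐍 F := norm_of_comm_le' ((commutator_mono le_rfl f.le).trans (((qt_cent_iff (UP.trans nZ) nZ).1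
    ((c.syl.pi.qt Z).cent_of_prime Nat.prime_three (by rw [card_qt (UP.trans nZ), Elem.relIndex (n := 1) u (z.of_le ZU), pow_one])
      (qt_norm Z n))).trans zF.le))
  obtain ⟨T, -, pT, nT, T1⟩ : ∃ T, T ≤ th x ∧ PiGrp {2} T ∧ F ≤ 𝐍 T ∧ T ≠ ⊥ := by
    by_contra! k
    exact bad (odd_of f.pi (O_pi _ _) ((le_cent1_iff.2 (f.abel xF)).trans (O_normal _ _).norm) k)
  obtain ⟨Q, q, l⟩ := exists_maxInv pT nT
  have nF := sup_le (le_norm_self F) UF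
  obtain ⟨g, m⟩ := fixQ (O_pi _ _) (c.syl.pi.le (sup_le f.le UP)) (le_norm_O _ (norm_cent nF)) nF (c.tr f zF full gz) q
  have pQ := q.pi.cj g
  obtain ⟨a, ha, a1, k⟩ := u.abel.exists_cent1_ne_bot u.not_cyc (le_sup_right.trans m)
    (u.pi.coprime (pQ.of_single_ne (by decide))) (mt cj_eq_bot.1 (ne_bot_mono T1 l))
  generalize cj g Q = T at *
  obtain ⟨w, w1, hw, -⟩ := z.exists_gen
  obtain ⟨Y, hY⟩ := pQ.inf_left.exists_elem_one k
  obtain ⟨y, y1, hy, -⟩ := hY.exists_gen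
  have y2 := hY.ab.pow y hy
  replace hy := hY.le hy
  have w3 := z.ab.pow w hw
  have P0 : P ⊓ 𝐂 U ≤ 𝐂₁ a := inf_le_right.trans (cent_le_cent1 ha)
  have wa : w ∈ 𝐂₁ a := cent_le_cent1 ha (u.abel (ZU hw))
  have e := (fp3 w3 (norm_inf (zpowers_le.2 (m (mem_sup_left (zF.le hw)))) (norm_of_le (zpowers_le.2 wa)) (mem_zpowers w))
    (eq_bot_mono (c.cz f.ab full (zF.le hw) w1 (gz w hw) pQ (le_sup_left.trans m)) (inf_le_inf_right _ inf_le_left))).1 y hy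
  have N := O_normal {3}ᶜ (𝐂₁ a)
  have ny := N.norm hy.2
  have nw := N.norm wa
  have nv := mul_mem (mul_mem (inv_mem nw) ny) nw
  have h := (PLay_eq_bot_iff_charP Nat.prime_three).1 (c.lay a1 (u.pi.elt ha))
  have R := O_normal {3} (qt (th a) (𝐂₁ a))
  obtain ⟨S, s, lS⟩ := exists_syl_le P0 c.syl.pi.inf_left
  have i1 := u.logn_relIndex_cent n
  have i2 := congrArg (logn 3) (card_inf_mul_relIndex (𝐂 U) P)
  have i3 := logn_le_of_dvd (p := 3) (c.syl.card_dvd le_top s.pi) (card_ne_zero' _)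
  have i4 := logn_le_of_dvd (p := 3) (card_qt_dvd (th a) S) (card_ne_zero' _)
  have i5 := card_qt_of_inf_bot (P0.trans N.norm) ((O_pi _ _).inf_eq_bot' c.syl.pi.inf_left)
  have i6 := congrArg (logn 3) (card_sup_mul_card_inf (.inr ((qt_mono _ P0).trans R.norm)))
  have i7 := logn_card_le (p := 3) (sup_le (s.qt N.norm).O_le (qt_mono _ lS))
  have i8 := logn_card_le (p := 3) (inf_le_inf_left (𝐎 {3} (qt (th a) (𝐂₁ a))) ((qt_cent (th a) (inf_le_right.trans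
    (cent_anti (zpowers_le.2 (ZU hw))) : P ⊓ 𝐂 U ≤ _)).trans_eq (by rw [qt_zpowers nw, cent_zpowers])))
  rw [logn_mul (card_ne_zero' _) (relIndex_ne_zero' _ _), inf_comm] at i2
  rw [logn_mul (card_ne_zero' _) (card_ne_zero' _), logn_mul (card_ne_zero' _) (card_ne_zero' _), i5] at i6
  have py := piElt_of_pow_eq_one Nat.prime_two y2
  have := a4 (O_pi _ _) (by rw [← qe_mul ny ny, ← pow_two, y2, qe_one]) (by rw [← qe_pow nw, w3, qe_one])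
    (R.norm (qe_mem_qt hy.2 ny)) (R.norm (qe_mem_qt wa nw)) (by
      rw [← qe_inv nw, ← qe_mul (inv_mem nw) ny, ← qe_mul (mul_mem (inv_mem nw) ny) nw, ← qe_mul (inv_mem nw) nv,
        ← qe_mul (mul_mem (inv_mem nw) nv) nw, ← qe_mul ny nv, ← qe_mul (mul_mem ny nv) (mul_mem (mul_mem (inv_mem nw) nv) nw), e,
        qe_one]) (by dsimp only [th] at *; omega)
  exact y1 (py.eq_one ((c.gB (u.le ha)).elt ((qe_eq_one ny).1 ((py.qe ny).eq_one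
    (((O_pi _ _).of_single_ne (by decide)).elt (h ⟨qe_mem_qt hy.2 ny, this⟩))))))

end Hc

end CF.Mas
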