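-- variant of `Loc.KM1` with a weaker hypothesis at `p`
import Cfsg.Agent.Loc.GC1
import Cfsg.Agent.PLocal.FFTwo
import Cfsg.Agent.Transfer.Frat
import Cfsg.Agent.Coprime.Hall

/-! The Klinger–Mason argument: preliminaries. -/

set_option autoImplicit false
set_option linter.unusedSectionVars false

namespace CF.Mas.KM

open Cfsg Subgroup CF.Loc CF.FF CF.GC
open scoped commutatorElement

variable {G : Type*} [Group G] {p q n : ℕ} {A B D D₀ D₁ H K N Q R W X Y Z : Subgroup G} {a b c d e f g s t v w x y z : G}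

theorem cm_mem' (ha : a ∈ W) (hv : v ∈ 𝐍(W)) : ⁅a, v⁆ ∈ W := commutatorElement_inv v a ▸ inv_mem (cm_mem hv ha)

theorem cml (m n a : G) : ⁅m * n, a⁆ = m * ⁅n, a⁆ * m⁻¹ * ⁅m, a⁆ := by simp only [commutatorElement_def]; group

theorem ea_of_sq (h : ∀ q ∈ Q, q * q = 1) : IsElementaryAbelian 2 Q :=
  isElementaryAbelian_iff.2 ⟨fun a ha b hb => by
    rw [← inv_eq_of_mul_eq_one_right (h _ (mul_mem hb ha)), mul_inv_rev, inv_eq_of_mul_eq_one_right (h a ha),
      inv_eq_of_mul_eq_one_right (h b hb)], fun a ha => (pow_two a).trans (h a ha)⟩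

theorem zp2 (h : c * c ∈ K) (n : c ∈ 𝐍(K)) (hb : b ∈ K ⊔ zpowers c) : b ∈ K ∨ b * c ∈ K := by
  obtain ⟨k, hk, _, ⟨m, rfl⟩, rfl⟩ := (mem_sup_of_le_normalizer (zpowers_le.2 n)).1 hb
  obtain ⟨j, rfl | rfl⟩ := Int.even_or_odd' m
  · exact .inl (mul_mem hk (show c ^ (2 * j) ∈ K by rw [zpow_mul, zpow_two]; exact zpow_mem h j))
  · refine .inr (mul_assoc k _ c ▸ mul_mem hk ?_)
    have := zpow_mem h (j + 1)
    rwa [← zpow_two, ← zpow_mul, show 2 * (j + 1) = 2 * j + 1 + 1 by ring, zpow_add_one] at this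

theorem ea_zp (h : t * t = 1) : IsElementaryAbelian 2 (zpowers t) :=
  ea_of_sq fun q hq => by rcases eq_or_of_mem_zpowers h hq with rfl | rfl; exacts [mul_one 1, h]

theorem cent_zp : g ∈ 𝐂(zpowers t) ↔ g * t = t * g := by rw [centralizer_zpowers, mem_centralizer_singleton_iff]

/-- `x` centralizes `C_S(D)` for the `2`-groups `S` it normalizes -/
def Pj (D : Subgroup G) (x : G) : Prop := ∀ S : Subgroup G, IsPGroup 2 S → x ∈ 𝐍(S) → ∀ u ∈ S, u ∈ 𝐂(D) → u * x = x * u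

/-- the weak form of characteristic `p` -/
def Cq (p : ℕ) (G : Type*) [Group G] : Prop := ∀ D A : Subgroup G, IsPGroup p D → D ≠ ⊥ → IsPGroup 2 A → A ≤ 𝐂(D) →
  ∃ R ≤ 𝐂(D), IsPGroup p R ∧ A ≤ 𝐍(R) ∧ (∀ a ∈ A, a ∈ 𝐂(R) → a = 1) ∧ ∀ x ∈ R, Pj D x

theorem cmr (b a c : G) : ⁅b, a * c⁆ = ⁅b, a⁆ * (a * ⁅b, c⁆ * a⁻¹) := by simp only [commutatorElement_def]; group

/-- the elements whose commutator with `a` lies in `W` -/
def cs (a : G) (W : Subgroup G) : Subgroup G where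
  carrier := {g | g ∈ 𝐍(W) ∧ ⁅a, g⁆ ∈ W}
  one_mem' := ⟨one_mem _, by simp⟩
  mul_mem' := fun hx hy => ⟨mul_mem hx.1 hy.1, cmr a _ _ ▸ mul_mem hx.2 (conj_mem_of_mem_normalizer hx.1 hy.2)⟩
  inv_mem' := fun {x} hx => ⟨inv_mem hx.1, by
    convert conj_mem_of_mem_normalizer' hx.1 (inv_mem hx.2) using 1; simp only [commutatorElement_def]; group⟩

/-- an elementary abelian subgroup of order at least `8` through `t` -/
def E8 (X : Subgroup G) (t : G) : Prop := ∃ A ≤ X, IsElementaryAbelian 2 A ∧ t ∈ A ∧ 4 < Nat.card A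

theorem E8.mono (h : E8 X t) (l : X ≤ Y) : E8 Y t := let ⟨A, a, b⟩ := h; ⟨A, a.trans l, b⟩

variable [Finite G]

theorem ext [hq : Fact q.Prime] (e : IsElementaryAbelian q D) (hx : x ∈ 𝐂(D)) (xq : x ^ q = 1) (n : x ∉ D) :
    IsElementaryAbelian q (D ⊔ zpowers x) ∧ Nat.card ↥(D ⊔ zpowers x) = q * Nat.card D := by
  have o := orderOf_eq_prime xq fun z => n (z ▸ one_mem _)
  have c := card_sup_mul_card_inf' (zpowers_le.2 (centralizer_le_normalizer _ hx))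
  have : Fact (Nat.card (zpowers x)).Prime := ⟨by rw [Nat.card_zpowers, o]; exact hq.out⟩
  rw [show D ⊓ zpowers x = ⊥ from disjoint_iff.1 (subgroupOf_eq_bot.1 ((eq_bot_or_eq_top_of_prime_card _).resolve_right
    fun z => n (subgroupOf_eq_top.1 z (mem_zpowers x)))),
    card_bot, mul_one, Nat.card_zpowers, o, mul_comm] at c
  exact ⟨isElemAb_sup e (Invol.isElemAb_zpowers xq) (le_centralizer_comm.1 (zpowers_le.2 hx)), c⟩

theorem card_zp (t1 : t ≠ 1) (t2 : t * t = 1) : Nat.card (zpowers t) = 2 := by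
  rw [Nat.card_zpowers, orderOf_eq_prime ((pow_two t).trans t2) t1]

theorem mkE8 (t1 : t ≠ 1) (t2 : t * t = 1) (a2 : a * a = 1) (b2 : b * b = 1) (ht : t ∈ X) (ha : a ∈ X) (hb : b ∈ X)
    (c1 : a * t = t * a) (c2 : b * t = t * b) (c3 : b * a = a * b) (na : a ∉ zpowers t) (nb : b ∉ zpowers t)
    (nc : b * a ∉ zpowers t) : E8 X t := by
  obtain ⟨e1, k1⟩ := ext (ea_zp t2) (cent_zp.2 c1) ((pow_two a).trans a2) na
  obtain ⟨e2, k2⟩ := ext (x := b) e1 (by rw [centralizer_sup]; exact ⟨cent_zp.2 c2, cent_zp.2 c3⟩) ((pow_two b).trans b2) fun z =>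
    (zp2 (a2 ▸ one_mem _) (centralizer_le_normalizer _ (cent_zp.2 c1)) z).elim nb nc
  exact ⟨_, sup_le (sup_le (zpowers_le.2 ht) (zpowers_le.2 ha)) (zpowers_le.2 hb), e2, mem_sup_left (mem_sup_left (mem_zpowers t)),
    by rw [k2, k1, card_zp t1 t2]; decide⟩

theorem hyp [hq : Fact q.Prime] (e : IsElementaryAbelian q D) (n : D ≤ 𝐍(W)) (c : (Nat.card D).Coprime (Nat.card W)) (k : ¬ W ≤ N) :
    ∃ B ≤ D, Nat.card D ≤ q * Nat.card B ∧ ¬ W ⊓ 𝐂(B) ≤ N := by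
  by_contra! z
  have := e.1
  refine k (Coprime.le_of_forall_cocyclic D W n c N fun B a ha f => z B (f ▸ le_sup_left) ?_)
  by_cases m : a ∈ B
  · rw [← f, sup_of_le_left (zpowers_le.2 m)]; exact Nat.le_mul_of_pos_left _ hq.out.pos
  · rw [← (ext (isElemAb_of_le e (f ▸ le_sup_left)) (centralizer_anti (f ▸ le_sup_left) (isElemAb_le_centralizer e ha))
      (e.2 a ha) m).2, f]

theorem full [Fact q.Prime] (e : IsElementaryAbelian q D) (l : B ≤ D) (c : Nat.card D ≤ q * Nat.card B) (hd : d ∈ D) (n : d ∉ B) :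
    D ≤ B ⊔ zpowers d := (eq_of_le_of_card_le (sup_le l (zpowers_le.2 hd)) (c.trans (ext (isElemAb_of_le e l)
      (centralizer_anti l (isElemAb_le_centralizer e hd)) (e.2 d hd) n).2.ge)).ge

theorem two_lt (h : 1 < Nat.card H) : ∃ v ∈ H, v ≠ 1 := by
  by_contra! z
  rw [eq_bot_iff_forall H |>.2 z, card_bot] at h
  exact h.false

/-- the hypothesis: characteristic `2` and `p`; `n` bounds the elementary abelian `p`-subgroups centralizing an involution -/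
structure Hy (p n : ℕ) (G : Type*) [Group G] : Prop where
  odd : p ≠ 2
  cq : Cq p G
  lc : LC G
  mx : ∀ (D : Subgroup G) (t : G), IsElementaryAbelian p D → t ≠ 1 → t * t = 1 → D ≤ 𝐂(zpowers t) → Nat.card D ≤ n

variable [hp : Fact p.Prime]

namespace Hy
variable (h : Hy p n G)
include h

theorem cop : Nat.Coprime p 2 := (Nat.coprime_primes hp.out Nat.prime_two).2 h.odd

theorem cop' (a : IsPGroup p A) (b : IsPGroup 2 B) : (Nat.card A).Coprime (Nat.card B) := IsPGroup.coprime_card_of_ne p 2 h.odd A B a b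

theorem one (a : IsPGroup p A) (b : IsPGroup 2 B) (ha : x ∈ A) (hb : x ∈ B) : x = 1 :=
  mem_bot.1 ((IsPGroup.disjoint_of_ne p 2 h.odd A B a b).le_bot ⟨ha, hb⟩)

theorem ninv (xp : x ^ p = 1) (e : x = x⁻¹) : x = 1 := h.one (isPGroup_zpowers (k := 1) (by simpa))
  (isPGroup_zpowers (k := 1) (by rw [pow_one, pow_two, ← eq_inv_iff_mul_eq_one, ← e])) (mem_zpowers x) (mem_zpowers x)

theorem fixc (dp : d ^ p = 1) (pQ : IsPGroup 2 Q) (m : ⁅d, y⁆ ∈ Q) (c : ⁅d, y⁆ * d = d * ⁅d, y⁆) : d * y = y * d := by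
  obtain ⟨k, e⟩ := isPGroup_iff_forall.1 pQ _ (inv_mem m)
  rw [commutatorElement_inv] at e
  refine (commutatorElement_eq_one_iff_mul_comm.1 (mem_bot.1 (comm_mem_of_coprime (W := ⊥) (by simp) (by simp) (mem_bot.2 (cm_one ?_))
    (mem_bot.2 (by rw [dp]; simp)) (mem_bot.2 e) (h.cop.pow_right k)))).symm
  rw [← commutatorElement_inv]; exact (Commute.inv_left c).eq

theorem step (e : IsElementaryAbelian p D) (d0 : D ≠ ⊥) (ea : IsElementaryAbelian 2 A) (l : A ≤ 𝐂(D)) (hb : b ∈ A) (b1 : b ≠ 1) :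
    ∃ x, Pj D x ∧ x ≠ 1 ∧ b * x * b⁻¹ = x⁻¹ ∧ IsElementaryAbelian p (D ⊔ zpowers x) ∧
      Nat.card ↥(D ⊔ zpowers x) = p * Nat.card D ∧ ∃ H ≤ A, H ≤ 𝐂(D ⊔ zpowers x) ∧ Nat.card A ≤ 2 * Nat.card H := by
  obtain ⟨R, lR, pR, nR, fR, jR⟩ := h.cq D A (isElemAb_isPGroup e) d0 (isElemAb_isPGroup ea) l
  obtain ⟨H, lH, c, k⟩ := hyp ea nR (h.cop' pR (isElemAb_isPGroup ea)).symm (N := 𝐂(zpowers b)) fun z => b1
    (fR b hb (le_centralizer_comm.1 z (mem_zpowers b)))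
  obtain ⟨y, hy, y0⟩ := SetLike.not_le_iff_exists.1 k
  have m := cm_mem (le_normalizer_inf nR (le_normalizer_centralizer (((isElemAb_le_centralizer ea).trans (centralizer_anti lH)).trans
    (centralizer_le_normalizer _))) hb) hy
  have i : b * ⁅b, y⁆ * b⁻¹ = ⁅b, y⁆⁻¹ := by
    rw [commutatorElement_inv, commutatorElement_def, commutatorElement_def, ← mul_assoc, ← mul_assoc, ← mul_assoc,
      mul_self_of_elemAb ea hb, one_mul, inv_eq_of_mul_eq_one_right (mul_self_of_elemAb ea hb)]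
  have y1 : ⁅b, y⁆ ≠ 1 := fun z => y0 (cent_zp.2 (commutatorElement_eq_one_iff_mul_comm.1 z).symm)
  generalize ⁅b, y⁆ = u at m i y1
  obtain ⟨j, x1, xp⟩ : ∃ j, u ^ j ≠ 1 ∧ (u ^ j) ^ p = 1 := by
    have := orderOf_pow_orderOf_div (orderOf_pos u).ne' ((pR.to_le (zpowers_le.2 m.1)).card_eq_or_dvd.resolve_left
      (by simpa using y1) |>.trans (Nat.card_zpowers u).dvd)
    exact ⟨_, fun z => hp.out.one_lt.ne (by rw [← this, z, orderOf_one]), this ▸ pow_orderOf_eq_one _⟩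
  have i' : b * u ^ j * b⁻¹ = (u ^ j)⁻¹ := by rw [← conj_pow, i, inv_pow]
  have m' := pow_mem m j
  obtain ⟨e', c'⟩ := ext e (lR m'.1) xp fun z => x1 (h.ninv xp ((conj_eq_of_mem_centralizer (l hb) z).symm.trans i'))
  exact ⟨_, jR _ m'.1, x1, i', e', c', H, lH, by
    rw [centralizer_sup]; exact le_inf (lH.trans l) (le_centralizer_comm.1 (zpowers_le.2 m'.2)), c⟩

theorem rk (j : ℕ) : ∀ {D A : Subgroup G}, IsElementaryAbelian p D → D ≠ ⊥ → IsElementaryAbelian 2 A → A ≤ 𝐂(D) →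
    n < p ^ j * Nat.card D → Nat.card A ≤ 2 ^ j := by
  induction j with
  | zero => exact fun e _ ea l c => not_lt.1 fun z => let ⟨v, a, b⟩ := two_lt z
      c.not_ge (by simpa using h.mx _ v e b (mul_self_of_elemAb ea a) (le_centralizer_comm.1 ((zpowers_le.2 a).trans l)))
  | succ j ih =>
    refine fun e d0 ea l c => not_lt.1 fun z => ?_
    obtain ⟨b, hb, b1⟩ := two_lt ((Nat.one_lt_two_pow j.succ_ne_zero).trans z)
    obtain ⟨x, -, -, -, e', c', H, lH, k, s⟩ := h.step e d0 ea l hb b1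
    have := ih e' (fun z => d0 (le_bot_iff.1 (le_sup_left.trans z.le))) (isElemAb_of_le ea lH) k (by rwa [c', ← mul_assoc, ← pow_succ])
    omega

theorem noE8 (e : IsElementaryAbelian p D) (c : n ≤ p * Nat.card D) (b : p < n) : ¬ E8 𝐂(D) t := fun ⟨A, l, ea, _, k⟩ =>
  k.not_ge (h.rk 2 e (fun z => by simp [z] at c; omega) ea l (c.trans_lt (Nat.mul_lt_mul_of_pos_right
    (by nlinarith [hp.out.one_lt]) Nat.card_pos)))

end Hy

/-- a maximal pair -/
structure Mx (p n : ℕ) (D : Subgroup G) (t : G) : Prop extends Hy p n G where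
  big' : p < n
  ea : IsElementaryAbelian p D
  cd : Nat.card D = n
  t1 : t ≠ 1
  t2 : t * t = 1
  Dt : D ≤ 𝐂(zpowers t)

namespace Mx
variable (h : Mx p n D t)
include h

theorem pD : IsPGroup p D := isElemAb_isPGroup h.ea
theorem tD : zpowers t ≤ 𝐂(D) := le_centralizer_comm.1 h.Dt
theorem or (ha : a ∈ zpowers t) : a = 1 ∨ a = t := eq_or_of_mem_zpowers h.t2 ha

theorem r0 (ha : a ∈ 𝐂(D)) (a2 : a * a = 1) (c : a * t = t * a) : a ∈ zpowers t := by_contra fun z => by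
  obtain ⟨e, k⟩ := ext (ea_zp h.t2) (cent_zp.2 c) ((pow_two a).trans a2) z
  have := h.rk 1 h.ea (fun z => by have := h.big'; simp [← h.cd, z] at this; have := hp.out.pos; omega) e
    (sup_le h.tD (zpowers_le.2 ha)) (by rw [h.cd, pow_one]; exact lt_mul_of_one_lt_left (by have := h.big'; omega) hp.out.one_lt)
  rw [k, card_zp h.t1 h.t2] at this
  omega

theorem inv (ea : IsElementaryAbelian 2 A) (nA : D ≤ 𝐍(A)) (l : A ≤ 𝐂(zpowers t)) : A ≤ zpowers t := by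
  by_cases c : A ≤ 𝐂(D)
  · exact fun a ha => h.r0 (c ha) (mul_self_of_elemAb ea ha) (cent_zp.1 (l ha))
  obtain ⟨B, lB, k, c⟩ := hyp h.ea nA (h.cop' h.pD (isElemAb_isPGroup ea)) c
  obtain ⟨a, ha, a0⟩ := SetLike.not_le_iff_exists.1 c
  obtain ⟨d, hd, d0⟩ : ∃ d ∈ D, d * a ≠ a * d := by simpa [mem_centralizer_iff] using a0
  have m := conj_mem_of_mem_normalizer (le_normalizer_inf nA (le_normalizer_centralizer (((isElemAb_le_centralizer h.ea).trans
    (centralizer_anti lB)).trans (centralizer_le_normalizer _))) hd) ha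
  have a2 := mul_self_of_elemAb ea ha.1
  refine (h.noE8 (isElemAb_of_le h.ea lB) (h.cd ▸ k) h.big' (mkE8 h.t1 h.t2 a2 (mul_self_of_elemAb ea m.1)
    (centralizer_anti lB (h.tD (mem_zpowers t))) ha.2 m.2 (cent_zp.1 (l ha.1)) (cent_zp.1 (l m.1)) (isElemAb_le_centralizer ea ha.1 _ m.1)
    (fun z => a0 (h.tD z)) (fun z => d0 ?_) fun z => d0 ?_)).elim
  · have := h.tD z d hd
    rwa [← mul_assoc, ← mul_assoc, inv_mul_cancel_right, mul_assoc, mul_assoc, mul_right_inj, ← mul_assoc,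
      mul_inv_eq_iff_eq_mul] at this
  · have z' : ⁅d, a⁆ ∈ zpowers t := by rwa [commutatorElement_def, inv_eq_of_mul_eq_one_right a2]
    exact h.fixc (h.ea.2 d hd) (isElemAb_isPGroup (ea_zp h.t2)) z' (h.tD z' d hd).symm

end Mx

end CF.Mas.KM
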