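-- variant of `Loc.KM2`
import Cfsg.Agent.Mas.K1

/-! The Klinger–Mason argument: the subgroup of symplectic type. -/

set_option autoImplicit false
set_option linter.unusedSectionVars false

namespace CF.Mas.KM

open Cfsg Subgroup CF.Loc CF.FF CF.GC
open scoped commutatorElement

variable {G : Type*} [Group G] {p q n : ℕ} {A B D D₀ D₁ H K N Q R W X Y Z : Subgroup G} {a b c d e f g s t v w x y z : G}

theorem msq (a b : G) : a * b * (a * b) = a * a * ⁅a⁻¹, b⁆ * (b * b) := by simp only [commutatorElement_def]; group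

theorem cmm : ⁅a, b⁆ = 1 ↔ a * b = b * a := commutatorElement_eq_one_iff_mul_comm

variable [Finite G] [hp : Fact p.Prime]

theorem Hy.gen (h : Hy p n G) (a : IsPGroup p A) (k : IsPGroup 2 K) (l : A ≤ 𝐍(K)) (c : K ⊓ 𝐂(A) ≤ N)
    (m : ∀ d ∈ A, ∀ y ∈ K, ⁅d, y⁆ ∈ N) : K ≤ N :=
  (Coprime.commutator_sup_centralizer A K l (h.cop' a k) (.inl (isSolvable_of_isPGroup a))).ge.trans
    (sup_le (commutator_comm K A ▸ commutator_le.2 m) c)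

/-- the subgroup `Q` attached to a maximal pair -/
structure Gq (p n : ℕ) (D : Subgroup G) (t : G) (Q : Subgroup G) : Prop extends Mx p n D t where
  pQ : IsPGroup 2 Q
  tQ : t ∈ Q
  Qt : Q ≤ 𝐂(zpowers t)
  nQ : 𝐂(zpowers t) ≤ 𝐍(Q)
  sq : ∀ a ∈ Q, a * a ∈ zpowers t
  ff : ∀ d ∈ D, d ∈ 𝐂(Q) → d = 1

theorem Mx.gq (h : Mx p n D t) : ∃ Q, Gq p n D t Q := by
  have pF := isPGroup_pCoreOf 2 𝐂(zpowers t)
  have ch := h.lc.chC (isElemAb_isPGroup (ea_zp h.t2)) (by simpa using h.t1)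
  have lF := pCoreOf_le 2 𝐂(zpowers t)
  have nF := le_normalizer_pCoreOf 2 𝐂(zpowers t)
  obtain ⟨K, lK, -, nK, sq, cm, cK⟩ := Transfer.exists_critical_subgroup pF
  have Kt := lK.trans lF
  have tK : t ∈ K := cK ⟨ch ⟨cent_zp.2 rfl, le_centralizer_comm.1 lF (mem_zpowers t)⟩, le_centralizer_comm.1 Kt (mem_zpowers t)⟩
  replace nK := nF.trans nK
  have c : ∀ a ∈ K, ∀ b ∈ K, ⁅a, b⁆ ∈ zpowers t := fun a ha b hb => h.inv (isElemAb_omegaOneCenter 2 K)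
    (h.Dt.trans (nK.trans (normalizer_le_normalizer_omegaOneCenter 2 K))) ((omegaOneCenter_le 2 K).trans Kt) (by
    have m := cm (commutator_mem_commutator ha (lK hb))
    refine mem_omegaOneCenter.2 ⟨m.1, m.2, ?_⟩
    rw [pow_two, ← cm_one ((sq a ha).2 b hb).symm, pow_two, cml, m.2 a ha, mul_inv_cancel_right])
  let Q : Subgroup G := ⟨⟨⟨{a | a ∈ K ∧ a * a ∈ zpowers t}, fun {a b} ha hb => ⟨mul_mem ha.1 hb.1, msq a b ▸
    mul_mem (mul_mem ha.2 (c _ (inv_mem ha.1) _ hb.1)) hb.2⟩⟩, one_mem _, by simp⟩, fun ha => ⟨inv_mem ha.1, by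
      rw [← mul_inv_rev]; exact inv_mem ha.2⟩⟩
  refine ⟨Q, h, (pF.to_le lK).to_le fun _ z => z.1, ⟨tK, h.t2 ▸ one_mem _⟩, fun _ z => Kt z.1,
    fun g hg => mem_normalizer_of_conj_mem fun a ha => ⟨conj_mem_of_mem_normalizer (nK hg) ha.1, by
      rw [conj_mul]; exact conj_mem_of_mem_normalizer (centralizer_le_normalizer _ hg) ha.2⟩, fun _ z => z.2, fun d hd dQ => ?_⟩
  have k (j : ℕ) : ∀ y ∈ K, y ^ 2 ^ j = 1 → d * y = y * d := by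
    induction j with
    | zero => exact fun y _ z => by simp_all
    | succ j ih =>
      intro y hy z
      have m := cm_mem (nK (h.Dt hd)) hy
      refine h.fixc (h.ea.2 d hd) (pF.to_le lK) m (dQ _ ⟨m, ?_⟩)
      rw [commutatorElement_def, msq, conj_mul, ih _ (mul_mem hy hy) (by rwa [← pow_two, ← pow_mul, ← pow_succ']),
        mul_inv_cancel_right, ← mul_inv_rev]
      exact conj_mem_of_mem_normalizer (centralizer_le_normalizer _ (Kt (mul_mem hy hy)))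
        (c _ (inv_mem (conj_mem_of_mem_normalizer (nK (h.Dt hd)) hy)) _ (inv_mem hy))
  have dK : d ∈ 𝐂(K) := fun y hy => let ⟨j, z⟩ := isPGroup_iff_forall.1 (pF.to_le lK) y hy; (k j y hy z).symm
  exact h.one h.pD pF hd (ch ⟨h.Dt hd, fun f hf =>
    have m := cK ⟨cm_mem (nF (h.Dt hd)) hf, cm_mem' dK (normalizer_le_normalizer_centralizer K (nK (lF hf)))⟩
    (h.fixc (h.ea.2 d hd) (pF.to_le lK) m (dK _ m)).symm⟩)

/-- the seeds of the elementary abelian subgroups of order `8` -/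
def PP (Q X : Subgroup G) (t : G) : Prop :=
  E8 X t ∨ ∃ e ∈ X, ∃ f ∈ X, e * e = t ∧ f * f = t ∧ e ∉ 𝐂(Q) ∧ f ∉ 𝐂(Q) ∧ f * e ∉ 𝐂(Q)

namespace Gq
variable (h : Gq p n D t Q)
include h

theorem DQ : D ≤ 𝐍(Q) := h.Dt.trans h.nQ
theorem tZ : zpowers t ≤ 𝐂(Q) := le_centralizer_comm.1 h.Qt
theorem nZ : 𝐂(zpowers t) ≤ 𝐍(Q ⊓ 𝐂(Q)) := le_normalizer_inf h.nQ (le_normalizer_centralizer h.nQ)
theorem tZ' : zpowers t ≤ Q ⊓ 𝐂(Q) := le_inf (zpowers_le.2 h.tQ) h.tZ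

theorem cm (ha : a ∈ Q) (hb : b ∈ Q) : ⁅a, b⁆ ∈ zpowers t := by
  have := h.sq _ (mul_mem (inv_mem ha) hb)
  rwa [msq, inv_inv, mul_mem_cancel_right (h.sq b hb), mul_mem_cancel_left (h.sq _ (inv_mem ha))] at this

theorem cmt (ha : a ∈ Q) (hb : b ∈ Q) (c : a * b ≠ b * a) : ⁅a, b⁆ = t := (h.or (h.cm ha hb)).resolve_left (mt cmm.1 c)

theorem zi (ha : a ∈ Q) (c : a ∈ 𝐂(Q)) (a2 : a * a = 1) : a ∈ zpowers t := h.inv (isElemAb_omegaOneCenter 2 Q)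
  (h.DQ.trans (normalizer_le_normalizer_omegaOneCenter 2 Q)) ((omegaOneCenter_le 2 Q).trans h.Qt)
  (mem_omegaOneCenter.2 ⟨ha, c, (pow_two a).trans a2⟩)

theorem ZD : Q ⊓ 𝐂(Q) ≤ 𝐂(D) := fun z hz d hd => by
  have m := cm_mem (h.nZ (h.Dt hd)) hz
  refine h.fixc (h.ea.2 d hd) h.pQ m.1 (h.tD (h.zi m.1 m.2 ?_) d hd).symm
  rw [commutatorElement_def, msq, conj_mul, conj_eq_of_mem_centralizer (h.Dt hd) (h.sq z hz.1), ← mul_inv_rev,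
    cm_one ((𝐂(Q)).inv_mem hz.2 _ (inv_mem (conj_mem_of_mem_normalizer (h.DQ hd) hz.1))), mul_one, mul_inv_cancel]

theorem fz (hd : d ∈ D) (m : ⁅d, y⁆ ∈ Q ⊓ 𝐂(Q)) : d * y = y * d := h.fixc (h.ea.2 d hd) h.pQ m.1 (h.ZD m d hd).symm

theorem ccm (hd : d ∈ D) (ha : a ∈ Q) (c : d * a = a * d) (hw : w ∈ Q) : a * ⁅d, w⁆ = ⁅d, w⁆ * a := by
  have e : ⁅a, d * w * d⁻¹⁆ = ⁅a, w⁆ := by
    rw [← conj_eq_of_mem_centralizer (h.Dt hd) (h.cm ha hw), cm_conj, c, mul_inv_cancel_right]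
  rw [← cmm, commutatorElement_def d, cmr, e, conj_eq_of_mem_centralizer (h.Qt (conj_mem_of_mem_normalizer (h.DQ hd) hw))
    (h.cm ha (inv_mem hw)), ← conj_eq_of_mem_centralizer (h.Qt hw) (h.cm ha (inv_mem hw)), ← cmr, mul_inv_cancel,
    commutatorElement_one_right]

theorem nd (l : D₀ ≤ D) (ha : a ∈ Q ⊓ 𝐂(D₀)) (c : a ∈ 𝐂(Q ⊓ 𝐂(D₀))) : a ∈ 𝐂(Q) :=
  le_centralizer_comm.1 (h.gen (h.pD.to_le l) h.pQ (l.trans h.DQ) (le_centralizer_comm.1 (zpowers_le.2 c))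
    fun d hd _ hy => cent_zp.2 (h.ccm (l hd) ha.1 (ha.2 d hd) hy).symm) (mem_zpowers a)

theorem lb (l : X ≤ Q) (ht : t ∈ X) (hd : d ∈ D) (nX : d ∈ 𝐍(X)) (fp : ∀ y ∈ X, d * y = y * d → y ∈ 𝐂(Q)) (hc : c ∈ X)
    (c0 : c ∉ 𝐂(Q)) : PP Q X t := by
  have k1 : ∀ y ∈ X, y ∉ 𝐂(Q) → d * y * d⁻¹ ∉ 𝐂(Q) := fun y _ y0 z =>
    y0 ((mem_normalizer_iff.1 (normalizer_le_normalizer_centralizer Q (h.DQ hd)) y).2 z)
  have k2 : ∀ y ∈ X, y ∉ 𝐂(Q) → d * y * d⁻¹ * y ∉ 𝐂(Q) := fun y hy y0 z => y0 (fp y hy (h.fz hd ⟨cm_mem (h.DQ hd) (l hy), by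
    rw [commutatorElement_def, show d * y * d⁻¹ * y⁻¹ = d * y * d⁻¹ * y * (y * y)⁻¹ by group]
    exact (𝐂(Q)).mul_mem z (inv_mem (h.tZ (h.sq y (l hy))))⟩))
  have k3 : ∀ y ∈ X, y ∉ 𝐂(Q) → y * y = t → PP Q X t := fun y hy y0 z => .inr ⟨y, hy, _, conj_mem_of_mem_normalizer nX hy, z, by
    rw [conj_mul, z, conj_eq_of_mem_centralizer (h.Dt hd) (mem_zpowers t)], y0, k1 y hy y0, k2 y hy y0⟩
  refine (h.or (h.sq c (l hc))).elim (fun z => ?_) (k3 c hc c0)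
  have m := conj_mem_of_mem_normalizer nX hc
  have z' : d * c * d⁻¹ * (d * c * d⁻¹) = 1 := by rw [conj_mul, z]; simp
  by_cases s : d * c * d⁻¹ * c = c * (d * c * d⁻¹)
  · exact .inl (mkE8 h.t1 h.t2 z z' ht hc m (cent_zp.1 (h.Qt (l hc))) (cent_zp.1 (h.Qt (l m))) s (mt (h.tZ ·) c0)
      (mt (h.tZ ·) (k1 c hc c0)) (mt (h.tZ ·) (k2 c hc c0)))
  · refine k3 _ (mul_mem m hc) (k2 c hc c0) ?_
    rw [msq, z, z', one_mul, mul_one, inv_eq_of_mul_eq_one_right z', h.cmt (l m) (l hc) s]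

theorem le8 (lA : A ≤ Y) (lB : B ≤ Y) (lY : Y ≤ Q) (tB : t ∈ B) (c : B ≤ 𝐂(A)) (i : ∀ y ∈ A, y ∈ B → y ∈ 𝐂(Q))
    (pA : PP Q A t) (pB : PP Q B t) : E8 Y t := by
  rcases pA with z | ⟨e, he, f, hf, e2, f2, e0, f0, g0⟩; · exact z.mono lA
  rcases pB with z | ⟨x, hx, y, hy, x2, y2, x0, y0, z0⟩; · exact z.mono lB
  have k : ∀ a ∈ A, ∀ b ∈ B, a * b ∈ zpowers t → a ∈ 𝐂(Q) ∧ b ∈ 𝐂(Q) := fun a ha b hb z =>
    have := i a ha ((mul_mem_cancel_right hb).1 (zpowers_le.2 tB z))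
    ⟨this, (mul_mem_cancel_left this).1 (h.tZ z)⟩
  have s : ∀ a ∈ A, ∀ a' ∈ A, ∀ b ∈ B, ∀ b' ∈ B, a * b * (a' * b') = a * a' * (b * b') := fun a _ a' ha b hb b' _ => by
    rw [mul_assoc, ← mul_assoc b, ← c hb a' ha]; group
  have m : ∀ a ∈ A, ∀ a' ∈ A, ∀ b ∈ B, ∀ b' ∈ B, a * a = t → a' * a' = t → b * b = t → b' * b' = t → a ∉ 𝐂(Q) → a' ∉ 𝐂(Q) →
      (a' * a ∉ 𝐂(Q) ∨ b' * b ∉ 𝐂(Q)) → ⁅a', a⁆ = ⁅b, b'⁆ → E8 Y t := fun a ha a' ha' b hb b' hb' u u' v v' n n' o r => by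
    have m := mul_mem (lA ha) (lB hb)
    have m' := mul_mem (lA ha') (lB hb')
    refine mkE8 h.t1 h.t2 (by rw [s a ha a ha b hb b hb, u, v, h.t2]) (by rw [s _ ha' _ ha' _ hb' _ hb', u', v', h.t2]) (lB tB) m m'
      (cent_zp.1 (h.Qt (lY m))) (cent_zp.1 (h.Qt (lY m'))) ?_ (fun z => n (k _ ha _ hb z).1) (fun z => n' (k _ ha' _ hb' z).1) fun z => ?_
    · rw [s _ ha' _ ha _ hb' _ hb, s _ ha _ ha' _ hb _ hb', show a' * a = ⁅a', a⁆ * (a * a') by simp [commutatorElement_def],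
        show b * b' = ⁅b, b'⁆ * (b' * b) by simp [commutatorElement_def], r,
        ← h.tZ (h.cm (lY (lB hb)) (lY (lB hb'))) _ (lY (lA (mul_mem ha ha'))), mul_assoc]
    · rw [s _ ha' _ ha _ hb' _ hb] at z
      have := k _ (mul_mem ha' ha) _ (mul_mem hb' hb) z
      exact o.elim (· this.1) (· this.2)
  by_cases u : f * e = e * f
  · exact m e he f hf x hx x hx e2 f2 x2 x2 e0 f0 (.inl g0) (by rw [cm_one u, commutatorElement_self])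
  by_cases v : x * y = y * x
  · exact m e he e he x hx y hy e2 e2 x2 y2 e0 e0 (.inr z0) (by rw [cm_one v, commutatorElement_self])
  exact m e he f hf x hx y hy e2 f2 x2 y2 e0 f0 (.inl g0)
    (by rw [h.cmt (lY (lA hf)) (lY (lA he)) u, h.cmt (lY (lB hx)) (lY (lB hy)) v])

end Gq

end CF.Mas.KM
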