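-- variant of `Loc.KM3`
import Cfsg.Agent.Mas.K2

/-! The Klinger–Mason theorem: characteristic `2` and `p` force `2`-local `p`-rank at most `2`. -/

set_option autoImplicit false
set_option linter.unusedSectionVars false

namespace CF.Mas.KM

open Cfsg Subgroup CF.Loc CF.FF CF.GC
open scoped commutatorElement

variable {G : Type*} [Group G] {p q n : ℕ} {A B D D₀ D₁ H K N Q R S W X Y Z : Subgroup G} {a b c d e f g s t u v w x y z : G}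

theorem cc0 (h : ⁅a, v⁆ = ⁅a, u⁆) : u⁻¹ * v ∈ 𝐂(zpowers a) := cent_zp.2 (by
  rw [show u⁻¹ * v * a = u⁻¹ * ⁅a, v⁆⁻¹ * a * v by simp only [commutatorElement_def]; group, h, commutatorElement_def]; group)

theorem mem_cs (m : x ∈ 𝐂(B)) (c : x * d = d * x) : x ∈ 𝐂(B ⊔ zpowers d) := by rw [centralizer_sup]; exact ⟨m, cent_zp.2 c⟩

variable [Finite G] [hp : Fact p.Prime]

theorem Mx.ne (h : Mx p n D t) (k : n ≤ p * Nat.card B) : B ≠ ⊥ := fun z => by have := h.big'; simp [z] at k; omega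

namespace Gq
variable (h : Gq p n D t Q)
include h

theorem nC (l : D₀ ≤ D) : D ≤ 𝐍(Q ⊓ 𝐂(D₀)) := le_normalizer_inf h.DQ (le_normalizer_centralizer
  ((isElemAb_le_centralizer h.ea).trans (centralizer_le_normalizer_of_le l)))

theorem tC (l : D₀ ≤ D) : t ∈ Q ⊓ 𝐂(D₀) := ⟨h.tQ, centralizer_anti l (h.tD (mem_zpowers t))⟩

theorem mix (l₀ : D₀ ≤ D) (l₁ : D₁ ≤ D) (hd : d ∈ D₀) (f : D ≤ D₁ ⊔ zpowers d) (hc : c ∈ Q ⊓ 𝐂(D₁)) (c0 : d * c ≠ c * d)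
    (pA : PP Q (Q ⊓ 𝐂(D₀)) t) : E8 (Q ⊓ 𝐂(D₀ ⊓ D₁)) t :=
  have tB : t ∈ Q ⊓ 𝐂(D₁) ⊓ 𝐂(Q ⊓ 𝐂(D₀)) := ⟨h.tC l₁, centralizer_anti inf_le_left (h.tZ (mem_zpowers t))⟩
  h.le8 (inf_le_inf_left _ (centralizer_anti inf_le_left)) (inf_le_left.trans (inf_le_inf_left _ (centralizer_anti inf_le_right)))
    inf_le_left tB inf_le_right (fun _ a b => h.nd l₀ a b.2) pA (h.lb (inf_le_left.trans inf_le_left) tB (l₀ hd)
    (le_normalizer_inf (h.nC l₁) (le_normalizer_centralizer (h.nC l₀)) (l₀ hd))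
    (fun _ hy z => h.nd l₀ ⟨hy.1.1, centralizer_anti (l₀.trans f) (mem_cs hy.1.2 z.symm)⟩ hy.2)
    ⟨cm_mem (h.nC l₁ (l₀ hd)) hc, fun _ ha => h.ccm (l₀ hd) ha.1 (ha.2 d hd) hc.1⟩
    fun z => c0 (h.fz (l₀ hd) ⟨cm_mem (h.DQ (l₀ hd)) hc.1, z⟩))

theorem hp0 (l : D₀ ≤ D) (k : n ≤ p * Nat.card D₀) :
    ∃ B ≤ D, n ≤ p * Nat.card B ∧ ∃ d ∈ D₀, D ≤ B ⊔ zpowers d ∧ ∃ c ∈ Q ⊓ 𝐂(B), d * c ≠ c * d := by
  obtain ⟨B, lB, c, m⟩ := hyp h.ea h.DQ (h.cop' h.pD h.pQ) (N := 𝐂(D₀)) fun z => h.ne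
    k ((eq_bot_iff_forall _).2 fun d hd => h.ff d (l hd) (le_centralizer_comm.1 z hd))
  obtain ⟨a, ha, a0⟩ := SetLike.not_le_iff_exists.1 m
  obtain ⟨d, hd, d0⟩ : ∃ d ∈ D₀, d * a ≠ a * d := by simpa [mem_centralizer_iff] using a0
  exact ⟨B, lB, h.cd ▸ c, d, hd, full h.ea lB c (l hd) fun z => d0 (ha.2 d z), a, ha, d0⟩

theorem hp1 : ∃ B ≤ D, n ≤ p * Nat.card B ∧ ∃ d ∈ D, D ≤ B ⊔ zpowers d ∧ ∃ c ∈ Q ⊓ 𝐂(B), d * c ≠ c * d :=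
  h.hp0 le_rfl (h.cd.ge.trans (Nat.le_mul_of_pos_left _ hp.out.pos))

theorem iii : Q ⊓ 𝐂(D) ≤ 𝐂(Q) := fun e he => by_contra fun e0 => by
  obtain ⟨B, l, k, d, hd, g, c, hc, c0⟩ := h.hp1
  obtain ⟨f, hf, s⟩ : ∃ f ∈ Q ⊓ 𝐂(D), f * e ≠ e * f := by_contra fun z => e0 (h.nd le_rfl he fun f hf => by_contra fun y => z ⟨f, hf, y⟩)
  have q : ∀ a ∈ Q ⊓ 𝐂(D), a ∉ 𝐂(Q) → a * a = t := fun a ha a0 =>
    (h.or (h.sq a ha.1)).resolve_left fun z => a0 (h.tZ (h.r0 ha.2 z (cent_zp.1 (h.Qt ha.1))))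
  have f0 : f ∉ 𝐂(Q) := fun z => s (z e he.1).symm
  exact h.noE8 (isElemAb_of_le h.ea l) k h.big' ((h.mix le_rfl l hd g hc c0 (.inr ⟨e, he, f, hf, q e he e0, q f hf f0, e0, f0,
    fun z => s (mul_right_cancel ((z e he.1).symm.trans (mul_assoc e f e).symm))⟩)).mono
    (inf_le_right.trans (centralizer_anti (le_inf l le_rfl))))

theorem iv : ∃ B ≤ D, n ≤ p * (p * Nat.card B) ∧ E8 (Q ⊓ 𝐂(B)) t := by
  obtain ⟨D₀, l₀, k₀, d₀, hd₀, f₀, c₀, hc₀, c0⟩ := h.hp1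
  obtain ⟨D₁, l₁, k₁, d, hd, f, c, hc, c1⟩ := h.hp0 l₀ k₀
  refine ⟨_, inf_le_left.trans l₀, ?_, h.mix l₀ l₁ hd f hc c1 (h.lb inf_le_left (h.tC l₀) hd₀ (h.nC l₀ hd₀)
    (fun y hy z => h.iii ⟨hy.1, centralizer_anti f₀ (mem_cs hy.2 z.symm)⟩) hc₀ fun z => c0 (h.ZD ⟨hc₀.1, z⟩ d₀ hd₀))⟩
  have e := card_sup_mul_card_inf' (l₁.trans ((isElemAb_le_centralizer h.ea).trans (centralizer_le_normalizer_of_le l₀)))
  have l := h.cd ▸ card_le_of_le (sup_le l₀ l₁)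
  refine Nat.le_of_mul_le_mul_left ((Nat.mul_le_mul k₀ k₁).trans ?_) ((Nat.zero_le p).trans_lt h.big')
  rw [mul_mul_mul_comm, ← e, ← mul_assoc p p, mul_left_comm n]
  exact Nat.mul_le_mul_left _ (Nat.mul_le_mul_right _ l)

theorem pl (hv : v ∈ Q) (v2 : v * v = 1) (v0 : v ∉ zpowers t) (hy : y ∈ Q) (y2 : y * y = 1) (c : y ∈ 𝐂(Q ⊓ 𝐂(zpowers v))) :
    y ∈ zpowers t ∨ y * v ∈ zpowers t := by
  obtain ⟨g, hg, g0⟩ : ∃ g ∈ Q, g * v ≠ v * g := by_contra fun z => v0 (h.zi hv (fun g hg => by_contra fun y => z ⟨g, hg, y⟩) v2)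
  have k : ∀ u ∈ 𝐂(Q ⊓ 𝐂(zpowers v)), g * u = u * g → u ∈ 𝐂(Q) := fun u hu z x hx => by
    by_cases s : x * v = v * x
    · exact hu x ⟨hx, cent_zp.2 s⟩
    have := hu _ ⟨mul_mem hx hg, cent_zp.2 (cmm.1 (by
      rw [cml, h.cmt hg hv g0, h.cmt hx hv s, conj_eq_of_mem_centralizer (h.Qt hx) (mem_zpowers t), h.t2]))⟩
    rwa [mul_assoc, z, ← mul_assoc, ← mul_assoc, mul_left_inj] at this
  by_cases s : g * y = y * g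
  · exact .inl (h.zi hy (k y c s) y2)
  refine .inr (h.zi (mul_mem hy hv) (k _ (mul_mem c (le_centralizer_comm.1 inf_le_right (mem_zpowers v))) (cmm.1 ?_)) ?_)
  · rw [cmr, h.cmt hg hv g0, h.cmt hg hy s, conj_eq_of_mem_centralizer (h.Qt hy) (mem_zpowers t), h.t2]
  · rw [mul_assoc, ← mul_assoc v, c v ⟨hv, cent_zp.2 rfl⟩, mul_assoc, v2, mul_one, y2]

theorem fin (r : Gq p n D₁ v R) (l : B ≤ D) (l₁ : B ≤ D₁) (vQ : v ∈ Q) (v0 : v ∉ zpowers t) (tR : t ∉ R) (cB : R ⊓ 𝐂(B) ≤ 𝐂(R))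
    (ha : a ∈ Q ⊓ 𝐂(zpowers v)) (a2 : a * a = t) (hu : u ∈ R) : ⁅t, u⁆ ∈ R ⊓ 𝐂(R) := by
  have t0 : ∀ u ∈ zpowers t, u ∈ R → u = 1 := fun u a b => (h.or a).resolve_right fun z => tR (z ▸ b)
  have i : ∀ u ∈ Q, u ∈ R → u ∈ zpowers v := fun u a b => (h.pl vQ r.t2 v0 a (t0 _ (h.sq u a) (mul_mem b b))
    fun g hg => cmm.1 (t0 _ (h.cm hg.1 a) (cm_mem (r.nQ hg.2) b))).elim (fun z => t0 u z b ▸ one_mem _)
    fun z => eq_inv_of_mul_eq_one_left (t0 _ z (mul_mem b r.tQ)) ▸ inv_mem (mem_zpowers v)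
  have nZ := r.Qt.trans r.nZ
  have kd : ∀ d ∈ B, ∀ u, ⁅t, u⁆ ∈ R ⊓ 𝐂(R) → ⁅t, d * u * d⁻¹⁆ = ⁅t, u⁆ := fun d hd u z => by
    rw [← conj_eq_of_mem_centralizer (le_centralizer_comm.1 r.ZD (l₁ hd)) z, cm_conj,
      conj_eq_of_mem_centralizer (h.Dt (l hd)) (mem_zpowers t)]
  have zK : R ⊓ 𝐂(R) ≤ cs a (R ⊓ 𝐂(R)) := fun z hz => ⟨le_normalizer hz, cm_mem (r.nZ ha.2) hz⟩
  have e : R ⊓ cs t (R ⊓ 𝐂(R)) ≤ cs a (R ⊓ 𝐂(R)) := h.gen (h.pD.to_le l) r.pQ.to_inf_left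
    (fun d hd => mem_normalizer_of_conj_mem fun y hy => have m := conj_mem_of_mem_normalizer (r.DQ (l₁ hd)) hy.1
      ⟨m, nZ m, kd d hd y hy.2.2 ▸ hy.2.2⟩) (fun y hy => zK ⟨hy.1.1, cB ⟨hy.1.1, hy.2⟩⟩) fun d hd y hy => by
    have m := cm_mem (r.DQ (l₁ hd)) hy.1
    refine ⟨nZ m, r.tZ' (i _ (cm_mem' ha.1 (h.nQ ?_)) (cm_mem (r.nQ ha.2) m))⟩
    rw [show ⁅d, y⁆ = (y⁻¹⁻¹ * (d * y⁻¹ * d⁻¹))⁻¹ by simp only [commutatorElement_def]; group]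
    exact inv_mem (cc0 (kd d hd _ ((cs t _).inv_mem hy.2).2))
  have f : ∀ u : G, ⁅t, u⁆ = ⁅a, ⁅a, u⁆⁆ * (⁅a, u⁆ * ⁅a, u⁆) := fun u => by rw [← a2]; simp only [commutatorElement_def]; group
  have s : ∀ u ∈ R, ⁅a, u⁆ * ⁅a, u⁆ ∈ R ⊓ 𝐂(R) := fun u hu => r.tZ' (r.sq _ (cm_mem (r.nQ ha.2) hu))
  have g : ∀ u ∈ R, ⁅a, ⁅a, u⁆⁆ ∈ R ⊓ 𝐂(R) → ⁅t, u⁆ ∈ R ⊓ 𝐂(R) := fun u hu z => f u ▸ mul_mem z (s u hu)
  have m := cm_mem (r.nQ (a2 ▸ mul_mem ha.2 ha.2 : t ∈ _)) hu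
  have m' := cm_mem (r.nQ ha.2) hu
  have k := e ⟨m, nZ m, by
    rw [show ⁅t, ⁅t, u⁆⁆ = (⁅t, u⁆ * ⁅t, u⁆)⁻¹ by
      simp only [commutatorElement_def, ← mul_assoc, h.t2, mul_inv_rev, inv_inv, inv_eq_of_mul_eq_one_right h.t2, one_mul]]
    exact inv_mem (r.tZ' (r.sq _ m))⟩
  rw [f, mul_mem_cancel_right (zK (s u hu))] at k
  exact g u hu (e ⟨m', nZ m', g _ m' k.2⟩).2

end Gq

theorem Mx.false (h : Mx p n D t) (big : p * p < n) : False := by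
  obtain ⟨Q, h⟩ := h.gq
  obtain ⟨B, lB, k, A, lA, ea, tA, cA⟩ := h.iv
  have B0 : B ≠ ⊥ := fun z => by simp [z] at k; omega
  obtain ⟨x, hx, x1, tx, e₁, c₁, H, lH, Hx, cH⟩ := h.step (isElemAb_of_le h.ea lB) B0 ea (lA.trans inf_le_right) tA h.t1
  obtain ⟨w, hw, w1⟩ := two_lt (H := H) (by omega)
  obtain ⟨y, hy, y1, wy, e₂, c₂, K, lK, Ky, cK⟩ := h.step e₁ (fun z => B0 (le_bot_iff.1 (le_sup_left.trans z.le)))
    (isElemAb_of_le ea lH) Hx hw w1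
  obtain ⟨v, hv, v1⟩ := two_lt (H := K) (by omega)
  have vA := lH (lK hv)
  have v2 := mul_self_of_elemAb ea vA
  have Dv := le_centralizer_comm.1 ((zpowers_le.2 hv).trans Ky)
  obtain ⟨R, r⟩ := Mx.gq ⟨h.toHy, h.big', e₂, le_antisymm (h.mx _ v e₂ v1 v2 Dv) (by rwa [c₂, c₁]), v1, v2, Dv⟩
  have xD := mem_sup_left (T := zpowers y) (mem_sup_right (S := B) (mem_zpowers x))
  have yD := mem_sup_right (S := B ⊔ zpowers x) (mem_zpowers y)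
  have j : ∀ {E : Subgroup G} {z u : G}, Pj E z → z ∈ 𝐍(R) → u ∈ R → u ∈ 𝐂(E) → u ∈ 𝐂(E ⊔ zpowers z) := fun a b c d =>
    mem_cs d (a R r.pQ b _ c d)
  have cB : R ⊓ 𝐂(B) ≤ 𝐂(R) := fun u hu => r.iii ⟨hu.1, j hy (r.DQ yD) hu.1 (j hx (r.DQ xD) hu.1 hu.2)⟩
  have t0 : x * t ≠ t * x := fun z => x1 (h.ninv (e₂.2 x xD) (by rw [← tx, ← z, mul_inv_cancel_right]))
  have cx : ∀ u ∈ zpowers t, u ∈ H → u = 1 := fun u a b => (h.or a).resolve_right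
    fun z => t0 (z ▸ Hx b x (mem_sup_right (mem_zpowers x)))
  have v0 : v ∉ zpowers t := fun z => v1 (cx v z (lK hv))
  have Av : A ≤ Q ⊓ 𝐂(zpowers v) := le_inf (lA.trans inf_le_left)
    ((isElemAb_le_centralizer ea).trans (centralizer_anti (zpowers_le.2 vA)))
  obtain ⟨a, ha, a2⟩ : ∃ a ∈ Q ⊓ 𝐂(zpowers v), a * a = t := by_contra fun z => (h.pl (Av vA).1 v2 v0 (Av (lH hw)).1
    (mul_self_of_elemAb ea (lH hw)) (isElemAb_le_centralizer (ea_of_sq (Q := Q ⊓ 𝐂(zpowers v)) fun a ha => (h.or (h.sq a ha.1)).resolve_right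
      fun e => z ⟨a, ha, e⟩) (Av (lH hw)))).elim (fun m => w1 (cx w m hw)) fun m => y1 (h.ninv (e₂.2 y yD) (by
        rw [← wy, eq_inv_of_mul_eq_one_left (cx _ m (mul_mem hw (lK hv))), conj_eq_of_mem_centralizer (inv_mem (Ky hv)) yD]))
  have T := fun u hu => h.fin (u := u) r lB (le_sup_left.trans le_sup_left) (Av vA).1 v0
    (fun z => t0 (r.ZD ⟨z, cB ⟨z, (lA tA).2⟩⟩ x xD)) cB ha a2 hu
  have m := mul_mem (inv_mem xD) (inv_mem xD)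
  refine x1 (h.ninv (e₂.2 x xD) (inv_eq_of_mul_eq_one_left (r.ff _ m fun u hu => (r.fz m ?_).symm) ▸ (inv_inv x).symm))
  rw [show x⁻¹ * x⁻¹ = t * (x * t * x⁻¹) by rw [← mul_assoc, ← mul_assoc, ← tx, inv_eq_of_mul_eq_one_right h.t2], cml,
    show ⁅x * t * x⁻¹, u⁆ = x * ⁅t, x⁻¹ * u * x⁆ * x⁻¹ by simp only [commutatorElement_def]; group]
  exact mul_mem (conj_mem_of_mem_normalizer (r.nZ (Av tA).2) (conj_mem_of_mem_normalizer (r.nZ (r.Dt xD))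
    (T _ (conj_mem_of_mem_normalizer' (r.DQ xD) hu)))) (T u hu)

theorem main (odd : p ≠ 2) (cp : Cq p G) (lc : LC G) (pS : IsPGroup 2 S)
    (S0 : S ≠ ⊥) (e : IsElementaryAbelian p B) (l : B ≤ 𝐍(S)) (c : p < Nat.card B) : ∃ (D : Subgroup G) (t : G), Mx p (p * p) D t := by
  obtain ⟨A, lA, k, m⟩ := hyp e l (IsPGroup.coprime_card_of_ne p 2 odd B S (isElemAb_isPGroup e) pS) (mt le_bot_iff.1 S0)
  have eV := isElemAb_omegaOneCenter 2 (S ⊓ 𝐂(A))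
  have lV := (omegaOneCenter_le 2 (S ⊓ 𝐂(A))).trans inf_le_right
  obtain ⟨s, hs, s1⟩ := two_lt ((one_lt_card_iff_ne_bot _).2 (omegaOneCenter_ne_bot pS.to_inf_left (mt le_bot_iff.2 m)))
  have s2 := mul_self_of_elemAb eV hs
  have eA := isElemAb_of_le e lA
  obtain ⟨⟨D, t⟩, ⟨eD, t1, t2, Dt⟩, mx⟩ := Set.exists_max_image {z : Subgroup G × G | IsElementaryAbelian p z.1 ∧ z.2 ≠ 1 ∧
    z.2 * z.2 = 1 ∧ z.1 ≤ 𝐂(zpowers z.2)} (fun z => Nat.card z.1) (Set.toFinite _)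
    ⟨(A, s), eA, s1, s2, le_centralizer_comm.1 ((zpowers_le.2 hs).trans lV)⟩
  have h : Hy p (Nat.card D) G := ⟨odd, cp, lc, fun D t a b c d => mx (D, t) ⟨a, b, c, d⟩⟩
  suffices b : p < Nat.card D by
    have m : Mx p (Nat.card D) D t := ⟨h, b, eD, rfl, t1, t2, Dt⟩
    have u := not_lt.1 m.false
    obtain ⟨j, e⟩ := (isElemAb_isPGroup eD).exists_card_eq
    rw [e, ← pow_two, Nat.pow_le_pow_iff_right hp.out.one_lt] at u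
    rw [e] at b
    have := (Nat.pow_lt_pow_iff_right hp.out.one_lt).1 ((pow_one p).trans_lt b)
    exact ⟨D, t, by rwa [e, show j = 2 by omega, pow_two] at m⟩
  refine not_le.1 fun z => ?_
  have cV := h.rk 1 eA (fun z => by simp [z] at k; nlinarith [hp.out.one_lt]) eV lV (by rw [pow_one]; omega)
  have := eq_of_le_of_card_le (zpowers_le.2 hs) (by rwa [card_zp s1 s2])
  refine (z.trans_lt c).not_ge (h.mx B s e s1 s2 fun d hd => cent_zp.2 (mul_inv_eq_iff_eq_mul.1 ?_))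
  refine (eq_or_of_mem_zpowers s2 (this ▸ conj_mem_of_mem_normalizer (normalizer_le_normalizer_omegaOneCenter 2 _ (le_normalizer_inf l
    (le_normalizer_centralizer ((isElemAb_le_centralizer e).trans (centralizer_le_normalizer_of_le lA))) hd)) hs)).resolve_left ?_
  simpa using s1

end CF.Mas.KM
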