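import Cfsg.Agent.Mas.D
import Cfsg.Agent.Mas.K3
import Cfsg.Agent.Xs.B

/-! Passage to the Klinger–Mason hypothesis. -/

set_option autoImplicit false
set_option linter.unusedSectionVars false

namespace CF.Mas

open Cfsg Subgroup CF.BG CF.Sig
open scoped commutatorElement

variable {G : Type*} [Group G] [Finite G] {A B D E F H K L P Q R S U X Y Z : Subgroup G} {a b g h t u x y z : G}

theorem oddN (o : PiGrp {2}ᶜ (𝐎 {3}ᶜ H)) : PiGrp {2}ᶜ (O2 {3}ᶜ {3} H) := o.of_relIndex ((O2_idx _ _ H).of_single (by decide))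

theorem cp2 (H : Subgroup G) : Loc.IsCharP 2 H ↔ CharP 2 H := by rw [Loc.IsCharP, pCoreOf, map_pCore Nat.prime_two]; rfl

theorem ext9 (f : Elem 3 2 D H) (hx : x ∈ H) (x3 : x ^ 3 = 1) (x1 : x ≠ 1) : ∃ E, Elem 3 2 E H ∧ x ∈ E := by
  have X := elem_zpowers' Nat.prime_three hx x3 x1
  obtain ⟨S, s, l⟩ := exists_syl_le X.le X.pi
  obtain ⟨g, hg, m⟩ := s.syl_cj_le f.le f.pi
  obtain ⟨Z, z⟩ := s.pi.exists_elem_center (.refl S) (ne_bot_mono X.ne_bot l)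
  have c : S ≤ 𝐂 Z := cent_symm (z.le.trans (inf_le_right.trans inf_le_right))
  obtain ⟨Y, y, k, n⟩ : ∃ Y, Elem 3 1 Y H ∧ Y ≤ 𝐂 (zpowers x) ∧ Y ≠ zpowers x := by
    by_cases e : Z = zpowers x
    · obtain ⟨Y, y, n⟩ := (f.cj g).exists_ne Z
      exact ⟨Y, y.of_le (y.le.trans (m.trans s.le)), e ▸ y.le.trans (m.trans c), e ▸ n⟩
    · exact ⟨Z, z.of_le (z.le.trans (inf_le_left.trans s.le)), cent_symm (l.trans c), e⟩
  exact ⟨_, X.sup_one y k fun l => n (y.eq_of_le X l), mem_sup_left (mem_zpowers x)⟩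

theorem cyc_of (p : PiGrp {2} A) (a : Abel A) (k : ∀ a ∈ A, a ^ 2 = 1 → a ∈ zpowers t) : Cyc A :=
  a.cyc_of_pRank p (by
    rw [← pRank_Om]
    exact (pRank_mono 2 (Om_le_iff.2 k)).trans ((cyc_zpowers t).pRank_le 2))

theorem card_Q (e : IsElementaryAbelian 3 D) (c : ♯D = 9) (q : IsPGroup 2 Q) (n : D ≤ 𝐍 Q) (f : ∀ d ∈ D, d ∈ 𝐂 Q → d = 1)
    (r : ∀ d ∈ D, d ≠ 1 → ∀ w ∈ Q, w * w = 1 → d * w = w * d → w = 1 ∨ w = t) : ♯Q = 2 ^ 5 ∨ ♯Q = 2 ^ 7 ∨ ♯Q = 2 ^ 9 :=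
  have e := Elem.of_isEA (n := 2) Nat.prime_three le_top e c
  Xs.OneInv.card_W ⟨by decide, piGrp_of_isPGroup Nat.prime_two q, e.pi, e.abel, e.not_cyc, n, f, fun d hd d1 => by
    rw [← pRank_Om]
    refine (pRank_mono 2 (Om_le_iff.2 fun w hw w2 => ?_)).trans ((cyc_zpowers t).pRank_le 2)
    exact (r d hd d1 w hw.1 (by rwa [← pow_two]) (mem_cent1.1 hw.2).symm).elim (· ▸ one_mem _) (· ▸ mem_zpowers _)⟩

namespace Hc
variable (c : Hc P B)
include c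

theorem cq : KM.Cq 3 G := fun D A pD D1 pA l => by
  replace pD := piGrp_of_isPGroup Nat.prime_three pD
  replace pA := piGrp_of_isPGroup Nat.prime_two pA
  obtain ⟨Z, z⟩ := pD.exists_elem_center (.refl D) D1
  obtain ⟨x, x1, hx, -⟩ := z.exists_gen
  have m := (z.le hx).2
  obtain ⟨y, o⟩ := constrained_cent Nat.prime_three (c.lay x1 (z.pi.elt hx)) (le_cent1_iff.2 m.2) pD
  rw [inf_eq_right.2 (cent_le_cent1 m.1)] at y o
  replace o := (c.good (z.ab.pow x hx)).le o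
  have N := O2_normal {3}ᶜ {3} (𝐂 D)
  have N' := (O_normal {3}ᶜ (𝐂 D)).norm
  obtain ⟨R, s, n⟩ := exists_syl_inv (l.trans N.norm) (pA.coprime (oddN o)) (.inl pA.sol) 3
  refine ⟨R, s.le.trans N.le, s.pi.isPGroup, n, fun a ha k => (pA.elt ha).eq_one (o.elt ((qe_eq_one (N' (l ha))).1
    (((pA.elt ha).qe (N' (l ha))).eq_one (((O_pi _ _).of_single_ne (by decide)).elt
      ((PLay_eq_bot_iff_charP Nat.prime_three).1 y ⟨qe_mem_qt (l ha) (N' (l ha)), s.qt_O2 ▸ qt_cent _ (zpowers_le.2 k)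
        (qe_mem_qt (mem_zpowers a) (N' (l ha)))⟩))))), fun x hx S pS nS u hu k => commutatorElement_eq_one_iff_mul_comm.1
    (eq_one_of_mem_bot ((piGrp_of_isPGroup Nat.prime_two pS).inf_eq_bot (oddN o)) ⟨KM.cm_mem' hu nS, FF.cm_mem (N.norm k) (s.le hx)⟩)⟩

theorem n81 (e : IsElementaryAbelian 3 D) (q : IsPGroup 2 Q) (d : ♯D = 9) (n : D ≤ 𝐍 Q) (f : ∀ d ∈ D, d ∈ 𝐂 Q → d = 1) :
    81 ∣ Nat.card G := by_contra fun k => by
  have e := Elem.of_isEA (n := 2) Nat.prime_three le_top e d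
  replace q := piGrp_of_isPGroup Nat.prime_two q
  obtain ⟨E, b⟩ := exists_elem (n := 3) c.rk
  have l := b.le.trans c.scn.le
  have a : Abel P := c.syl.pi.eq_of_logn_le l (by
    rw [b.log, ← Nat.lt_succ_iff, ← not_le, ← pow_dvd_iff_le_logn Nat.prime_three (card_ne_zero' P)]
    exact fun j => k (j.trans (card_subgroup_dvd_card P))) ▸ b.abel
  refine e.ne_bot (eq_bot_of_forall fun x hx => f x hx (cent_symm (e.abel.le_of_cent1 e.not_cyc n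
    (e.pi.coprime (q.of_single_ne (by decide))) fun y hy y1 => ?_) hx))
  have m := le_cent1_iff.2 (e.abel hy)
  obtain ⟨S, s, lS⟩ := exists_syl_le m e.pi
  obtain ⟨g, -, j⟩ := c.syl.syl_cj_le le_top s.pi
  have N := O_normal {3}ᶜ (𝐂₁ y)
  have sq := s.qt N.norm
  have : D ≤ O2 {3}ᶜ {3} (𝐂₁ y) := (qt_le_qt_iff' (m.trans N.norm) (O_le_O2 _ _ _)).1 ((qt_mono _ lS).trans ((le_trans
    (le_inf sq.le (((abel_cj.1 (a.mono j)).qt _).cent le_rfl sq.O_le))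
      ((PLay_eq_bot_iff_charP Nat.prime_three).1 (c.lay y1 (e.pi.elt hy)))).trans_eq (qt_O2 _ _ _).symm))
  rw [← comm_eq_bot, ← le_bot_iff, ← q.inf_eq_bot (oddN (c.good (e.ab.pow y hy)))]
  exact le_inf ((commutator_mono inf_le_left le_rfl).trans (comm_le_left n))
    ((commutator_mono inf_le_right this).trans (comm_le_right (O2_normal _ _ _).norm))

end Hc

theorem hc_of [IsSimpleGroup G] (hG : ¬ IsMulCommutative G) (lc : GC.LC G) (P : Sylow 3 G) (hB : IsSCN (P : Subgroup G) B)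
    (hB3 : ¬ PRankLE 3 2 B) (hP : ∀ X : Subgroup G, IsPGroup 2 X → (P : Subgroup G) ≤ 𝐍 X → X = ⊥)
    (h3 : ∀ R : Subgroup G, IsPGroup 3 R → R ≠ ⊥ → 𝐍 R ≠ ⊤ → IsPConstrained 3 (𝐍 R)) : Hc P B :=
  have := Fact.mk Nat.prime_three
  ⟨fun u u1 e => PLay_eq_bot_iff'.2 (isPConstrained_iff_pLayer_eq_bot.1 (h3 _ e.zpowers.isPGroup (by simpa) fun k =>
    ((normalizer_eq_top_iff.1 k).eq_bot_or_eq_top).elim (by simpa) fun j => hG ⟨⟨fun a b =>
      (abel_zpowers u).mul_comm (j ▸ mem_top a) (j ▸ mem_top b)⟩⟩)), fun T p T1 => (cp2 _).1 (lc T p.isPGroup T1), syl_sylow_top P, hB,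
    (not_pRankLE_iff Nat.prime_three).1 hB3, fun X p => hP X p.isPGroup⟩

theorem ext9' (e : IsElementaryAbelian 3 D) (d : ♯D = 9) (l : D ≤ H) (hx : x ∈ H) (x3 : x ^ 3 = 1) (x1 : x ≠ 1) :
    ∃ E ≤ H, IsElementaryAbelian 3 E ∧ ♯E = 9 ∧ x ∈ E :=
  let ⟨E, f, k⟩ := ext9 (Elem.of_isEA (n := 2) Nat.prime_three l e d) hx x3 x1
  ⟨E, f.le, f.ab.isEA, f.card, k⟩

theorem sympl (ch : Loc.IsCharP 2 (𝐂₁ t))
    (inv : ∀ A : Subgroup G, IsElementaryAbelian 2 A → 𝐂₁ t ≤ 𝐍 A → A ≤ 𝐂₁ t → A ≤ zpowers t) :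
    IsOfSymplecticType (generalizedFittingSubgroup (𝐂₁ t)) := by
  have p : IsPGroup 2 (generalizedFittingSubgroup (𝐂₁ t)) := by
    rw [(charP_iff_fstar Nat.prime_two).1 ((cp2 _).1 ch), pCore_eq Nat.prime_two]; exact (O_pi _ _).isPGroup
  refine ⟨p, fun A a b => ?_⟩
  have n := normal_iff_map_subtype.1 (ConjAct.normal_of_characteristic_of_normal (K := A))
  have ab := ((Abel.of_comm b).map (Subgroup.subtype _)).map (𝐂₁ t).subtype
  exact (cyc_map_iff (subtype_injective _)).1 ((cyc_map_iff (subtype_injective _)).1 (cyc_of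
    (((piGrp_of_isPGroup Nat.prime_two (p.to_subgroup A)).map _).map _) ab fun x hx x2 =>
      inv _ (ab.abelem_Om Nat.prime_two).isEA (n.Om 2).norm (n.Om 2).le (mem_Om hx x2)))

end CF.Mas
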